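import Cfsg.Agent.BM.StageWRel

/-!
# Words for the centralizer of the element `p` of order 11 in the Baby Monster (helper816)
-/

set_option autoImplicit false

namespace Cfsg.Agent.H816.CPWords

open Cfsg.Agent.Monster.VecEngine Cfsg.Agent.Monster.VecSpace Cfsg.Agent.BabyM.Conc Cfsg.Agent.BabyM.WordsInst
  Cfsg.Agent.BM.StageW

/-- Two words differ in a lane of the value on the vector of the base. -/
noncomputable def neAt (L : List ℕ) (v w : List Ltr) : Bool :=
  runL (v.map Ltr.prog) vB fun y₁ => runL (w.map Ltr.prog) vB fun y₂ => L.any fun k => decide (val y₁ k ≠ val y₂ k)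

theorem ne_of_neAt {L : List ℕ} (hL : ∀ k ∈ L, U.testBit k = true) {v w : List Ltr} (h : neAt L v w = true) :
    Wg v ≠ Wg w := by
  intro he
  have he' : W v = W w := congrArg Subtype.val he
  obtain ⟨y₁, h1, hk1⟩ := runL_sound ℚ two_ne_zero (v.map Ltr.prog) (fun P hP => ((good_progs v) P hP).pres.ok) _ _ h
  obtain ⟨y₂, h2, hk2⟩ := runL_sound ℚ two_ne_zero (w.map Ltr.prog) (fun P hP => ((good_progs w) P hP).pres.ok) _ _ hk1
  have e1 : W v (vecU ℚ U vB) = vecU ℚ U y₁ := by
    rw [W_apply, vecU_eq, ← res_semL ℚ (fun P hP => ((good_progs v) P hP).pres), ← h1, vecU_eq]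
  have e2 : W w (vecU ℚ U vB) = vecU ℚ U y₂ := by
    rw [W_apply, vecU_eq, ← res_semL ℚ (fun P hP => ((good_progs w) P hP).pres), ← h2, vecU_eq]
  rw [List.any_eq_true] at hk2
  obtain ⟨k, hk, hne⟩ := hk2
  rw [decide_eq_true_eq] at hne
  apply hne
  have e3 : vecU ℚ U y₁ = vecU ℚ U y₂ := by rw [← e1, ← e2, he']
  have e4 := congrFun e3 ⟨k, hL k hk⟩
  have e5 : ((val y₁ k : ℤ) : ℚ) = ((val y₂ k : ℤ) : ℚ) := e4
  exact_mod_cast e5

/-- Some lanes. -/
def lns : List ℕ := [1282, 1288, 1313, 209, 1284, 4096, 4097, 4099, 5000, 6000]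

theorem lns_ok : ∀ k ∈ lns, U.testBit k = true := by decide +kernel

/-! ### The commutation relations -/

theorem tau_p : chk [.tau, .p] [.p, .tau] = true := by decide +kernel

theorem X_p : chk [.X10, .p] [.p, .X10] = true := by decide +kernel

theorem Z_p : chk [.Z10, .p] [.p, .Z10] = true := by decide +kernel

theorem p_eleven : chk [.p, .p, .p, .p, .p, .p, .p, .p, .p, .p, .p] [] = true := by decide +kernel

theorem r_sq : chk [.Z10, .X10, .Z10, .X10] [.z] = true := by decide +kernel

theorem X_sq : chk [.X10, .X10] [] = true := by decide +kernel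

theorem Z_sq : chk [.Z10, .Z10] [] = true := by decide +kernel

theorem z_sq : chk [.z, .z] [] = true := by decide +kernel

theorem z_X : chk [.z, .X10] [.X10, .z] = true := by decide +kernel

theorem z_Z : chk [.z, .Z10] [.Z10, .z] = true := by decide +kernel

theorem tau_three : chk [.tau, .tau, .tau] [] = true := by decide +kernel

theorem tau_z : chk [.z, .tau] [.tau, .Z10] = true := by decide +kernel

theorem X_ne : neAt lns [.X10] [] = true := by decide +kernel

theorem z_ne : neAt lns [.z] [] = true := by decide +kernel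

theorem Z_ne_z : neAt lns [.Z10] [.z] = true := by decide +kernel

theorem p_ne : neAt lns [.p] [] = true := by decide +kernel

/-! ### The norm of the letters of `Q` -/

/-- the eleventh power of `l * p` -/
def pw (l : Ltr) : List Ltr := [.p, l, .p, l, .p, l, .p, l, .p, l, .p, l, .p, l, .p, l, .p, l, .p, l, .p, l]

/-- The word is equal to a word in `X10`, `Z10`. -/
noncomputable def inD (v : List Ltr) : Bool :=
  chk v [] || chk v [.z] || chk v [.X10] || chk v [.X10, .z] || chk v [.Z10] || chk v [.Z10, .z] ||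
    chk v [.X10, .Z10] || chk v [.Z10, .X10]

theorem n_X0 : inD (pw .X0) = true := by decide +kernel

theorem n_X1 : inD (pw .X1) = true := by decide +kernel

theorem n_X2 : inD (pw .X2) = true := by decide +kernel

theorem n_X3 : inD (pw .X3) = true := by decide +kernel

theorem n_X4 : inD (pw .X4) = true := by decide +kernel

theorem n_X5 : inD (pw .X5) = true := by decide +kernel

theorem n_X6 : inD (pw .X6) = true := by decide +kernel

theorem n_X7 : inD (pw .X7) = true := by decide +kernel

theorem n_X8 : inD (pw .X8) = true := by decide +kernel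

theorem n_X9 : inD (pw .X9) = true := by decide +kernel

theorem n_X10 : inD (pw .X10) = true := by decide +kernel

theorem n_Z0 : inD (pw .Z0) = true := by decide +kernel

theorem n_Z1 : inD (pw .Z1) = true := by decide +kernel

theorem n_Z2 : inD (pw .Z2) = true := by decide +kernel

theorem n_Z3 : inD (pw .Z3) = true := by decide +kernel

theorem n_Z4 : inD (pw .Z4) = true := by decide +kernel

theorem n_Z5 : inD (pw .Z5) = true := by decide +kernel

theorem n_Z6 : inD (pw .Z6) = true := by decide +kernel

theorem n_Z7 : inD (pw .Z7) = true := by decide +kernel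

theorem n_Z8 : inD (pw .Z8) = true := by decide +kernel

theorem n_Z9 : inD (pw .Z9) = true := by decide +kernel

theorem n_Z10 : inD (pw .Z10) = true := by decide +kernel

/-! ### The normalizer of `⟨p⟩` modulo `Q` -/

/-- the word normalizing `p` -/
def nw : List Ltr := [.h, .p, .h, .p9, .h, .p6, .h, .p, .h, .p7, .h, .p7, .h, .Z3, .Z4]

theorem nw_p : chk (.p :: nw) (nw ++ [.p, .p, .p, .p, .p, .p]) = true := by decide +kernel

/-! ### The involution `t15` and elements of order 5 and 6 -/

/-- a word -/
def w15 : List Ltr := [.p10, .xi, .tau, .p10, .xi, .tau, .p, .xi, .p, .xi, .tau, .p7, .xi, .p9, .xi, .y2, .X0, .X2, .X5,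
  .X7, .X9, .Z0, .Z1, .Z6, .Z7]

/-- its inverse -/
def w15i : List Ltr := [.Z7, .Z6, .Z1, .Z0, .X9, .X7, .X5, .X2, .X0, .y2, .xii, .p2, .xii, .p4, .taui, .xii, .p10, .xii,
  .p10, .taui, .xii, .p, .taui, .xii, .p]

/-- an involution -/
def t15 : List Ltr := w15i ++ [.Z0, .Z2, .Z4, .Z5, .Z6] ++ w15

theorem t15_p : chk (t15 ++ [.p]) (.p :: t15) = true := by decide +kernel

theorem v_cube : chk ([.z] ++ t15 ++ [.z] ++ t15 ++ [.z] ++ t15) [.X10] = true := by decide +kernel

theorem v_sq_ne : neAt lns ([.z] ++ t15 ++ [.z] ++ t15) [] = true := by decide +kernel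

/-- the word of order five -/
def w5 : List Ltr := [.Z10, .X10] ++ t15

theorem w5_five : chk (w5 ++ w5 ++ w5 ++ w5 ++ w5) [] = true := by decide +kernel

theorem w5_ne : neAt lns w5 [] = true := by decide +kernel

end Cfsg.Agent.H816.CPWords
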