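import Mathlib

/-!
# Two elementary facts on monomial groups of degree six over a field with four elements

* `irr` : an additive subgroup of `F ^ 6` which is invariant under the even monomial maps of determinant one and the
  scalars is trivial or everything.
* `scalar_of_comm` : an injective additive map which commutes with the diagonal matrices `diag(w, w⁻¹, 1, 1, 1, 1)` and
  commutes up to scalars with the even permutation matrices is a scalar.
-/

set_option autoImplicit false

namespace Cfsg.Agent.H816.Mono6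

open Equiv

variable {F : Type*} [Field F]

theorem exists_two : ∀ i j : Fin 6, ∃ k l : Fin 6, k ≠ l ∧ k ≠ i ∧ k ≠ j ∧ l ≠ i ∧ l ≠ j := by decide

theorem exists_three : ∀ i j : Fin 6, ∃ k l m : Fin 6, k ≠ l ∧ k ≠ m ∧ l ≠ m ∧ k ≠ i ∧ k ≠ j ∧ l ≠ i ∧ l ≠ j ∧
    m ≠ i ∧ m ≠ j := by decide

theorem inv_self_apply' (s : Perm (Fin 6)) (a : Fin 6) : s⁻¹ (s a) = a := by simp

theorem self_inv_apply' (s : Perm (Fin 6)) (a : Fin 6) : s (s⁻¹ a) = a := by simp

/-- an even permutation with `s i = j` fixing a given further point -/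
theorem exists_perm (i j : Fin 6) (hij : i ≠ j) : ∃ (s : Perm (Fin 6)) (m : Fin 6), Perm.sign s = 1 ∧ s i = j ∧
    s m = m := by
  obtain ⟨k, l, m, hkl, hkm, hlm, hki, hkj, hli, hlj, hmi, hmj⟩ := exists_three i j
  refine ⟨swap i j * swap k l, m, ?_, ?_, ?_⟩
  · rw [Perm.sign_mul, Perm.sign_swap hij, Perm.sign_swap hkl]; rfl
  · rw [Perm.mul_apply, swap_apply_of_ne_of_ne hki.symm hli.symm, swap_apply_left]
  · rw [Perm.mul_apply, swap_apply_of_ne_of_ne hkm.symm hlm.symm, swap_apply_of_ne_of_ne hmi hmj]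

/-- the diagonal function with `w` at `i` and `w⁻¹` at `j` -/
def dd (w : Fˣ) (i j : Fin 6) : Fin 6 → Fˣ := Pi.mulSingle i w * Pi.mulSingle j w⁻¹

theorem prod_dd (w : Fˣ) (i j : Fin 6) : ∏ t, dd w i j t = 1 := by
  simp only [dd, Pi.mul_apply, Finset.prod_mul_distrib]
  rw [Finset.prod_eq_single i (fun b _ hb => Pi.mulSingle_eq_of_ne hb _) (fun h => absurd (Finset.mem_univ _) h),
    Finset.prod_eq_single j (fun b _ hb => Pi.mulSingle_eq_of_ne hb _) (fun h => absurd (Finset.mem_univ _) h),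
    Pi.mulSingle_eq_same, Pi.mulSingle_eq_same, mul_inv_cancel]

theorem dd_left (w : Fˣ) {i j : Fin 6} (hij : i ≠ j) : dd w i j i = w := by
  rw [dd, Pi.mul_apply, Pi.mulSingle_eq_same, Pi.mulSingle_eq_of_ne hij, mul_one]

theorem dd_right (w : Fˣ) {i j : Fin 6} (hij : i ≠ j) : dd w i j j = w⁻¹ := by
  rw [dd, Pi.mul_apply, Pi.mulSingle_eq_same, Pi.mulSingle_eq_of_ne hij.symm, one_mul]

theorem dd_other (w : Fˣ) {i j t : Fin 6} (hi : t ≠ i) (hj : t ≠ j) : dd w i j t = 1 := by
  rw [dd, Pi.mul_apply, Pi.mulSingle_eq_of_ne hi, Pi.mulSingle_eq_of_ne hj, one_mul]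

/-- **irreducibility** -/
theorem irr (W : AddSubgroup (Fin 6 → F))
    (h1 : ∀ (s : Perm (Fin 6)) (d : Fin 6 → Fˣ), Perm.sign s = 1 → ∏ i, d i = 1 → ∀ x ∈ W,
      (fun i => (d i : F) * x (s⁻¹ i)) ∈ W)
    (h2 : ∀ (c : Fˣ), ∀ x ∈ W, (c : F) • x ∈ W) (w : Fˣ) (hw : w ≠ 1) : W = ⊥ ∨ W = ⊤ := by
  classical
  by_cases hb : W = ⊥
  · exact Or.inl hb
  right
  have hw' : (w : F) - 1 ≠ 0 := by
    intro h
    exact hw (Units.ext (sub_eq_zero.1 h))
  obtain ⟨x, hx, hx0⟩ : ∃ x ∈ W, x ≠ 0 := by
    by_contra hc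
    push Not at hc
    exact hb ((AddSubgroup.eq_bot_iff_forall _).2 hc)
  obtain ⟨i, hi⟩ : ∃ i, x i ≠ 0 := by
    by_contra hc
    push Not at hc
    exact hx0 (funext hc)
  obtain ⟨j, k, hjk, hji, -, hki, -⟩ := exists_two i i
  have diag : ∀ d : Fin 6 → Fˣ, ∏ i, d i = 1 → ∀ x ∈ W, (fun i => (d i : F) * x i) ∈ W := by
    intro d hd y hy
    have := h1 1 d (by simp) hd y hy
    simpa using this
  have hy : (fun t => ((dd w i j t : Fˣ) : F) * x t) - x ∈ W := W.sub_mem (diag _ (prod_dd w i j) x hx) hx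
  set y : Fin 6 → F := (fun t => ((dd w i j t : Fˣ) : F) * x t) - x with hydef
  have hy2 : (fun t => ((dd w i k t : Fˣ) : F) * y t) - y ∈ W := W.sub_mem (diag _ (prod_dd w i k) y hy) hy
  have hsingle : (fun t => ((dd w i k t : Fˣ) : F) * y t) - y = Pi.single i (((w : F) - 1) * (((w : F) - 1) * x i)) := by
    funext t
    by_cases hti : t = i
    · subst hti
      rw [Pi.single_eq_same, Pi.sub_apply, dd_left w hki.symm, hydef, Pi.sub_apply, dd_left w hji.symm]
      ring
    · rw [Pi.single_eq_of_ne hti, Pi.sub_apply]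
      by_cases htk : t = k
      · subst htk
        rw [hydef, Pi.sub_apply, dd_other w hki hjk.symm]
        simp
      · rw [dd_other w hti htk]
        simp
  rw [hsingle] at hy2
  have ha : ((w : F) - 1) * (((w : F) - 1) * x i) ≠ 0 := mul_ne_zero hw' (mul_ne_zero hw' hi)
  have hall : ∀ c : F, (Pi.single i c : Fin 6 → F) ∈ W := by
    intro c
    by_cases hc : c = 0
    · rw [hc, Pi.single_zero]; exact W.zero_mem
    · have h3 := h2 (Units.mk0 (c / (((w : F) - 1) * (((w : F) - 1) * x i))) (div_ne_zero hc ha)) _ hy2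
      rw [Units.val_mk0, ← Pi.single_smul, smul_eq_mul, div_mul_cancel₀ _ ha] at h3
      exact h3
  have hall2 : ∀ (j : Fin 6) (c : F), (Pi.single j c : Fin 6 → F) ∈ W := by
    intro j c
    by_cases hij : i = j
    · subst hij; exact hall c
    · obtain ⟨s, m, hs, hsi, -⟩ := exists_perm i j hij
      have h3 := h1 s (fun _ => 1) hs (by simp) _ (hall c)
      convert h3 using 1
      funext t
      rw [Units.val_one, one_mul]
      by_cases ht : t = j
      · subst ht
        rw [Pi.single_eq_same, ← hsi, inv_self_apply', Pi.single_eq_same]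
      · rw [Pi.single_eq_of_ne ht, Pi.single_eq_of_ne]
        intro h4
        apply ht
        rw [← hsi, ← h4, self_inv_apply']
  rw [eq_top_iff]
  intro x _
  rw [← Finset.univ_sum_single x]
  exact W.sum_mem fun j _ => hall2 j _

/-- **the centraliser** -/
theorem scalar_of_comm (w : Fˣ) (hw : w ≠ 1) (hF : ∀ c : F, c = 0 ∨ c = 1 ∨ c = w ∨ c = (w⁻¹ : Fˣ))
    (g : (Fin 6 → F) →+ (Fin 6 → F)) (hg : Function.Injective g)
    (h1 : ∀ i j : Fin 6, i ≠ j → ∀ x, g (fun t => ((dd w i j t : Fˣ) : F) * x t) = fun t => ((dd w i j t : Fˣ) : F) * g x t)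
    (h2 : ∀ s : Perm (Fin 6), Perm.sign s = 1 → ∃ c : Fˣ, ∀ x, g (fun t => x (s⁻¹ t)) = (c : F) • fun t => g x (s⁻¹ t)) :
    ∃ c : Fˣ, ∀ x, g x = (c : F) • x := by
  classical
  have hw' : (w : F) - 1 ≠ 0 := by
    intro h
    exact hw (Units.ext (sub_eq_zero.1 h))
  -- supports
  have hsupp : ∀ (i : Fin 6) (c : F) (l : Fin 6), l ≠ i → g (Pi.single i c) l = 0 := by
    intro i c l hl
    obtain ⟨j, -, -, hjl, hji, -, -⟩ := exists_two l i
    have h3 := h1 l j hjl.symm (Pi.single i c)
    have h4 : (fun t => ((dd w l j t : Fˣ) : F) * (Pi.single i c : Fin 6 → F) t) = Pi.single i c := by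
      funext t
      by_cases ht : t = i
      · subst ht
        rw [dd_other w hl.symm hji.symm, Units.val_one, one_mul]
      · rw [Pi.single_eq_of_ne ht, mul_zero]
    rw [h4] at h3
    have h5 := congrFun h3 l
    simp only [dd_left w hjl.symm] at h5
    have h6 : ((w : F) - 1) * g (Pi.single i c) l = 0 := by rw [sub_mul, one_mul, ← h5, sub_self]
    exact (mul_eq_zero.1 h6).resolve_left hw'
  have heq : ∀ (i : Fin 6) (c : F), g (Pi.single i c) = Pi.single i (g (Pi.single i c) i) := by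
    intro i c
    funext l
    by_cases hl : l = i
    · subst hl; rw [Pi.single_eq_same]
    · rw [Pi.single_eq_of_ne hl, hsupp i c l hl]
  have hmulw : ∀ (i : Fin 6) (c : F), g (Pi.single i ((w : F) * c)) i = w * g (Pi.single i c) i := by
    intro i c
    obtain ⟨j, -, -, hji, -, -, -⟩ := exists_two i i
    have h3 := h1 i j hji.symm (Pi.single i c)
    have h4 : (fun t => ((dd w i j t : Fˣ) : F) * (Pi.single i c : Fin 6 → F) t) = Pi.single i ((w : F) * c) := by
      funext t
      by_cases ht : t = i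
      · subst ht
        rw [dd_left w hji.symm, Pi.single_eq_same, Pi.single_eq_same]
      · rw [Pi.single_eq_of_ne ht, Pi.single_eq_of_ne ht, mul_zero]
    rw [h4] at h3
    have h5 := congrFun h3 i
    simp only [dd_left w hji.symm] at h5
    exact h5
  have hlin : ∀ (i : Fin 6) (c : F), g (Pi.single i c) i = c * g (Pi.single i 1) i := by
    intro i c
    rcases hF c with h | h | h | h
    · rw [h, Pi.single_zero, map_zero, Pi.zero_apply, zero_mul]
    · rw [h, one_mul]
    · have := hmulw i 1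
      rw [mul_one] at this
      rw [h, this]
    · have := hmulw i ((w⁻¹ : Fˣ) : F)
      rw [← Units.val_mul, mul_inv_cancel, Units.val_one] at this
      rw [h, this, ← mul_assoc, ← Units.val_mul, inv_mul_cancel, Units.val_one, one_mul]
  have hne : ∀ i : Fin 6, g (Pi.single i 1) i ≠ 0 := by
    intro i h
    have h3 := heq i 1
    rw [h, Pi.single_zero, ← map_zero g] at h3
    have h4 := congrFun (hg h3) i
    rw [Pi.single_eq_same, Pi.zero_apply] at h4
    exact one_ne_zero h4
  have hperm : ∀ i j : Fin 6, i ≠ j → g (Pi.single j 1) j = g (Pi.single i 1) i := by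
    intro i j hij
    obtain ⟨s, m, hs, hsi, hsm⟩ := exists_perm i j hij
    obtain ⟨c, hc⟩ := h2 s hs
    have h4 : ∀ a : Fin 6, (fun t => (Pi.single a (1 : F) : Fin 6 → F) (s⁻¹ t)) = Pi.single (s a) 1 := by
      intro a
      funext t
      by_cases ht : t = s a
      · subst ht
        rw [Pi.single_eq_same, inv_self_apply', Pi.single_eq_same]
      · rw [Pi.single_eq_of_ne ht, Pi.single_eq_of_ne]
        intro h4
        apply ht
        rw [← h4, self_inv_apply']
    have h5 : ∀ a : Fin 6, g (Pi.single (s a) 1) (s a) = c * g (Pi.single a 1) a := by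
      intro a
      have h6 := hc (Pi.single a 1)
      rw [h4] at h6
      have h7 := congrFun h6 (s a)
      simpa using h7
    have h6 := h5 m
    rw [hsm] at h6
    have hc1 : (c : F) = 1 := by
      have h7 : ((c : F) - 1) * g (Pi.single m 1) m = 0 := by rw [sub_mul, one_mul, ← h6, sub_self]
      exact sub_eq_zero.1 ((mul_eq_zero.1 h7).resolve_right (hne m))
    have h7 := h5 i
    rw [hsi, hc1, one_mul] at h7
    exact h7
  refine ⟨Units.mk0 (g (Pi.single 0 1) 0) (hne 0), fun x => ?_⟩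
  have h3 : ∀ i, g (Pi.single i 1) i = g (Pi.single 0 1) 0 := by
    intro i
    by_cases hi : 0 = i
    · subst hi; rfl
    · exact hperm 0 i hi
  rw [Units.val_mk0]
  conv_lhs => rw [← Finset.univ_sum_single x]
  rw [map_sum]
  funext l
  rw [Finset.sum_apply, Finset.sum_eq_single l]
  · rw [hlin, h3, Pi.smul_apply, smul_eq_mul, mul_comm]
  · intro j _ hj
    exact hsupp j _ l hj.symm
  · intro h; exact absurd (Finset.mem_univ _) h

end Cfsg.Agent.H816.Mono6
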