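import Mathlib
import Cfsg.Agent.R08.Frame
import Cfsg.Agent.H816.Mono6

/-!
# Consequences of `FrameData` (the shape of the centraliser of a 2-central involution of `Fi24'`)
-/

set_option autoImplicit false

namespace Cfsg.Agent.H816.FrameFacts

open scoped commutatorElement
open Subgroup Cfsg.Agent.Co2Type.Quad Cfsg.Agent.R08.Frame Cfsg.Agent.H816.Mono6 Equiv

theorem exists_w {F : Type*} [Field F] [Fintype F] (hF : Fintype.card F = 4) :
    ∃ w : Fˣ, w ≠ 1 ∧ w ^ 3 = 1 ∧ ∀ c : F, c = 0 ∨ c = 1 ∨ c = w ∨ c = (w⁻¹ : Fˣ) := by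
  classical
  have hc : Fintype.card Fˣ = 3 := by rw [Fintype.card_units, hF]
  have h3 : ∀ u : Fˣ, u ^ 3 = 1 := fun u => by rw [← hc]; exact pow_card_eq_one
  obtain ⟨w, hw⟩ : ∃ w : Fˣ, w ≠ 1 := by
    have : Nontrivial Fˣ := Fintype.one_lt_card_iff_nontrivial.1 (by omega)
    exact exists_ne 1
  refine ⟨w, hw, h3 w, fun c => ?_⟩
  by_cases hc0 : c = 0
  · exact Or.inl hc0
  right
  have hne : w⁻¹ ≠ w := by
    intro h
    apply hw
    have h1 : w * w = 1 := by
      nth_rewrite 1 [← h]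
      exact inv_mul_cancel w
    have h2 := h3 w
    rw [pow_succ, pow_two, h1, one_mul] at h2
    exact h2
  have hset : ({1, w, w⁻¹} : Finset Fˣ) = Finset.univ := by
    apply Finset.eq_univ_of_card
    rw [hc, Finset.card_eq_three]
    exact ⟨1, w, w⁻¹, hw.symm, (inv_ne_one.2 hw).symm, hne.symm, rfl⟩
  have h4 : Units.mk0 c hc0 ∈ ({1, w, w⁻¹} : Finset Fˣ) := by rw [hset]; exact Finset.mem_univ _
  simp only [Finset.mem_insert, Finset.mem_singleton] at h4
  rcases h4 with h | h | h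
  · left
    have := congrArg Units.val h
    simpa using this
  · right; left
    have := congrArg Units.val h
    simpa using this
  · right; right
    have := congrArg Units.val h
    simpa using this

/-- the diagonal commutator -/
theorem diag_comm {F : Type*} [Field F] (w : Fˣ) (hw3 : w ^ 3 = 1) (i j : Fin 6) (hij : i ≠ j) :
    ∃ (s : Perm (Fin 6)) (d : Fin 6 → Fˣ), Perm.sign s = 1 ∧ ∏ t, d t = 1 ∧
      ∀ t, d (s⁻¹ t) * (d t)⁻¹ = dd w i j t := by
  obtain ⟨k, l, hkl, hki, hkj, hli, hlj⟩ := exists_two i j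
  have hs1 : ∀ t, (swap i j * swap j k : Perm (Fin 6))⁻¹ t = swap j k (swap i j t) := by
    intro t
    rw [mul_inv_rev, swap_inv, swap_inv, Perm.mul_apply]
  refine ⟨swap i j * swap j k, Pi.mulSingle j w * Pi.mulSingle k w * Pi.mulSingle l w, ?_, ?_, ?_⟩
  · rw [Perm.sign_mul, Perm.sign_swap hij, Perm.sign_swap hkj.symm]; rfl
  · simp only [Pi.mul_apply, Finset.prod_mul_distrib]
    have h1 : ∀ a : Fin 6, ∏ t, (Pi.mulSingle a w : Fin 6 → Fˣ) t = w := by
      intro a
      rw [Finset.prod_eq_single a (fun b _ hb => Pi.mulSingle_eq_of_ne hb _)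
        (fun h => absurd (Finset.mem_univ _) h), Pi.mulSingle_eq_same]
    rw [h1, h1, h1, ← pow_two, ← pow_succ]; exact hw3
  · intro t
    rw [hs1]
    simp only [Pi.mul_apply]
    by_cases hti : t = i
    · subst hti
      rw [swap_apply_left, swap_apply_left, dd_left w hij, Pi.mulSingle_eq_of_ne hkj, Pi.mulSingle_eq_same,
        Pi.mulSingle_eq_of_ne hkl, Pi.mulSingle_eq_of_ne hij, Pi.mulSingle_eq_of_ne hki.symm,
        Pi.mulSingle_eq_of_ne hli.symm]
      simp
    by_cases htj : t = j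
    · subst htj
      rw [swap_apply_right, swap_apply_of_ne_of_ne hij hki.symm, dd_right w hij, Pi.mulSingle_eq_of_ne hij,
        Pi.mulSingle_eq_of_ne hki.symm, Pi.mulSingle_eq_of_ne hli.symm, Pi.mulSingle_eq_same,
        Pi.mulSingle_eq_of_ne hkj.symm, Pi.mulSingle_eq_of_ne hlj.symm]
      simp
    rw [swap_apply_of_ne_of_ne hti htj, dd_other w hti htj]
    by_cases htk : t = k
    · subst htk
      rw [swap_apply_right, Pi.mulSingle_eq_same, Pi.mulSingle_eq_of_ne hkj.symm,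
        Pi.mulSingle_eq_of_ne hlj.symm, Pi.mulSingle_eq_of_ne hkj, Pi.mulSingle_eq_same,
        Pi.mulSingle_eq_of_ne hkl]
      simp
    · rw [swap_apply_of_ne_of_ne htj htk, mul_inv_cancel]

section

variable {G : Type*} [Group G] {z : G} {Q N M : Subgroup (Subgroup.centralizer ({z} : Set G))}

theorem mem_mapQ (c : Subgroup.centralizer ({z} : Set G)) :
    (c : G) ∈ Q.map (Subgroup.centralizer ({z} : Set G)).subtype ↔ c ∈ Q := by
  constructor
  · rintro ⟨d, hd, hdc⟩
    rwa [← (Subtype.ext hdc : d = c)]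
  · intro hc
    exact ⟨c, hc, rfl⟩

variable (h : Large (Q.map (Subgroup.centralizer ({z} : Set G)).subtype) z)

include h in
theorem act_eq_one [Finite G] (c : Subgroup.centralizer ({z} : Set G)) : h.act c = 1 ↔ c ∈ Q :=
  ⟨fun hc => (mem_mapQ c).1 (h.mem_of_act c hc), fun hc => h.act_mem c ((mem_mapQ c).2 hc)⟩

variable {F : Type*} [Field F] {h} (f : FrameData h N M F)

include f

/-- **the action on `V` is irreducible** -/
theorem irr_V {w : Fˣ} (hw : w ≠ 1) (W : AddSubgroup h.V) (hW : ∀ c, ∀ v ∈ W, h.act c v ∈ W) :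
    W = ⊥ ∨ W = ⊤ := by
  have hmem : ∀ x, x ∈ W.map f.lab.toAddMonoidHom ↔ f.lab.symm x ∈ W := by
    intro x
    constructor
    · rintro ⟨v, hv, rfl⟩
      simpa using hv
    · intro hx
      exact ⟨_, hx, by simp⟩
  have h0 : W.map f.lab.toAddMonoidHom = ⊥ ∨ W.map f.lab.toAddMonoidHom = ⊤ := by
    refine irr (W.map f.lab.toAddMonoidHom) ?_ ?_ w hw
    · intro s d hs hd x hx
      obtain ⟨m, hm, hm2⟩ := f.mono s d hs hd
      rw [hmem] at hx ⊢
      have h3 := hW m _ hx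
      convert h3 using 1
      apply f.lab.injective
      rw [AddEquiv.apply_symm_apply]
      funext i
      rw [hm2, AddEquiv.apply_symm_apply]
    · intro c x hx
      obtain ⟨n, hn, hn2⟩ := f.scal' c
      rw [hmem] at hx ⊢
      have h3 := hW n _ hx
      convert h3 using 1
      apply f.lab.injective
      rw [AddEquiv.apply_symm_apply, hn2, AddEquiv.apply_symm_apply]
  rcases h0 with h1 | h1
  · left
    rw [AddSubgroup.eq_bot_iff_forall] at h1 ⊢
    intro v hv
    have := h1 (f.lab v) ⟨v, hv, rfl⟩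
    simpa using this
  · right
    rw [eq_top_iff]
    intro v _
    have : f.lab v ∈ W.map f.lab.toAddMonoidHom := by rw [h1]; trivial
    rw [hmem] at this
    simpa using this

/-- a normal subgroup of the centraliser meets `Q` in `1`, `⟨z⟩` or `Q` -/
theorem irr_sub {w : Fˣ} (hw : w ≠ 1) (W : Subgroup (Subgroup.centralizer ({z} : Set G))) [hWn : W.Normal] :
    (∀ x ∈ W, x ∈ Q → (x : G) = 1 ∨ (x : G) = z) ∨ Q ≤ W := by
  let V' : AddSubgroup h.V :=
    { carrier := {v | ∃ x : Q.map (Subgroup.centralizer ({z} : Set G)).subtype, (∃ c ∈ W, (c : G) = x) ∧ h.pr x = v}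
      zero_mem' := ⟨1, ⟨1, W.one_mem, rfl⟩, h.pr_one⟩
      add_mem' := by
        rintro a b ⟨x, ⟨c, hc, hcx⟩, rfl⟩ ⟨y, ⟨d, hd, hdy⟩, rfl⟩
        exact ⟨x * y, ⟨c * d, W.mul_mem hc hd, by rw [Subgroup.coe_mul, hcx, hdy]; rfl⟩, h.pr_mul x y⟩
      neg_mem' := by
        rintro a ⟨x, ⟨c, hc, hcx⟩, rfl⟩
        exact ⟨x, ⟨c, hc, hcx⟩, (h.neg_eq _).symm⟩ }
  have hV' : ∀ c, ∀ v ∈ V', h.act c v ∈ V' := by
    rintro c v ⟨x, ⟨d, hd, hdx⟩, rfl⟩
    refine ⟨h.conjQ c x, ⟨c * d * c⁻¹, hWn.conj_mem d hd c, ?_⟩, (h.act_pr c x).symm⟩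
    rw [h.conjQ_coe, ← hdx]; rfl
  rcases irr_V f hw V' hV' with h1 | h1
  · left
    intro x hx hxQ
    have h2 : h.pr ⟨(x : G), (mem_mapQ x).2 hxQ⟩ ∈ V' := ⟨_, ⟨x, hx, rfl⟩, rfl⟩
    rw [h1, AddSubgroup.mem_bot, h.pr_eq_zero] at h2
    exact h2
  · right
    have key : ∀ q : Q.map (Subgroup.centralizer ({z} : Set G)).subtype,
        ∃ x : Q.map (Subgroup.centralizer ({z} : Set G)).subtype, (∃ c ∈ W, (c : G) = x) ∧ h.pr x = h.pr q := by
      intro q
      have : h.pr q ∈ V' := by rw [h1]; trivial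
      exact this
    have hzC : z ∈ Subgroup.centralizer ({z} : Set G) := mem_centralizer_singleton_iff.2 rfl
    have hzW : (⟨z, hzC⟩ : Subgroup.centralizer ({z} : Set G)) ∈ W := by
      have hv : f.lab.symm (fun _ => 1) ≠ 0 := by
        intro h2
        have h3 := congrArg f.lab h2
        rw [AddEquiv.apply_symm_apply, map_zero] at h3
        exact one_ne_zero (congrFun h3 0)
      obtain ⟨u, hu⟩ : ∃ u, h.b (f.lab.symm (fun _ => 1)) u ≠ 0 := by
        by_contra hc
        push Not at hc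
        exact hv (h.b_nondeg hc)
      obtain ⟨x0, hx0⟩ := h.pr_surjective (f.lab.symm (fun _ => 1))
      obtain ⟨y0, hy0⟩ := h.pr_surjective u
      obtain ⟨x, ⟨c, hc, hcx⟩, hx⟩ := key x0
      obtain ⟨y, ⟨d, hd, hdy⟩, hy⟩ := key y0
      rw [← hx0, ← hy0, ← hx, ← hy, Ne, h.b_pr] at hu
      have h2 := (h.comm x x.2 y y.2).resolve_left hu
      have h3 : (⟨z, hzC⟩ : Subgroup.centralizer ({z} : Set G)) = (d * c)⁻¹ * (c * d) := by
        apply Subtype.ext
        show z = ((d : G) * c)⁻¹ * (c * d)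
        rw [hcx, hdy, h2]; group
      rw [h3]
      exact W.mul_mem (W.inv_mem (W.mul_mem hd hc)) (W.mul_mem hc hd)
    intro q hq
    obtain ⟨x, ⟨c, hc, hcx⟩, hx⟩ := key ⟨(q : G), (mem_mapQ q).2 hq⟩
    rcases h.pr_eq_pr.1 hx with h2 | h2
    · have : q = c := Subtype.ext (by rw [hcx, h2])
      rw [this]; exact hc
    · have : q = c * ⟨z, hzC⟩ := by
        apply Subtype.ext
        show (q : G) = c * z
        rw [hcx, h2, mul_assoc, h.z_sq, mul_one]
      rw [this]; exact W.mul_mem hc hzW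

/-- a normal subgroup of the centraliser lies in `Q` or contains `Q` -/
theorem le_or_ge [Finite G] [hQn : Q.Normal] {w : Fˣ} (hw : w ≠ 1)
    (W : Subgroup (Subgroup.centralizer ({z} : Set G))) [hWn : W.Normal] : W ≤ Q ∨ Q ≤ W := by
  rcases irr_sub f hw W with h1 | h1
  · left
    intro c hc
    rw [← act_eq_one h]
    ext v
    obtain ⟨⟨x, hx⟩, rfl⟩ := h.pr_surjective v
    obtain ⟨y, hy, rfl⟩ := hx
    rw [h.act_pr]
    show _ = h.pr _
    have hyQ : y ∈ Q := hy
    have h2 := h1 (c * y * c⁻¹ * y⁻¹) (by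
      rw [mul_assoc, mul_assoc, ← mul_assoc y]
      exact W.mul_mem hc (hWn.conj_mem _ (W.inv_mem hc) y)) (Q.mul_mem (hQn.conj_mem y hyQ c) (Q.inv_mem hyQ))
    rw [h.pr_eq_pr, h.conjQ_coe]
    show (c : G) * y * (c : G)⁻¹ = y ∨ (c : G) * y * (c : G)⁻¹ = y * z
    have h4 : (y : G) * z = z * y := mem_centralizer_singleton_iff.1 y.2
    rcases h2 with h3 | h3
    · left
      have h5 : (c : G) * y * (c : G)⁻¹ * (y : G)⁻¹ = 1 := h3
      exact mul_inv_eq_one.1 h5
    · right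
      have h5 : (c : G) * y * (c : G)⁻¹ * (y : G)⁻¹ = z := h3
      rw [h4]
      exact mul_inv_eq_iff_eq_mul.1 h5
  · exact Or.inr h1

/-- `N` is central modulo `Q` in `M` -/
theorem commute_act {n m : Subgroup.centralizer ({z} : Set G)} (hn : n ∈ N) (hm : m ∈ M) :
    Commute (h.act n) (h.act m) := by
  obtain ⟨c, hc⟩ := f.scal n hn
  obtain ⟨A, -, hA⟩ := f.lin m hm
  ext v
  apply f.lab.injective
  show f.lab (h.act n (h.act m v)) = f.lab (h.act m (h.act n v))
  rw [hc, hA, hA, hc, Matrix.mulVec_smul]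

/-- the diagonal commutators -/
theorem exists_D {w : Fˣ} (hw3 : w ^ 3 = 1) (i j : Fin 6) (hij : i ≠ j) :
    ∃ a ∈ M, ∃ b ∈ M, ∀ v t, f.lab (h.act ⁅a, b⁆ v) t = ((dd w i j t : Fˣ) : F) * f.lab v t := by
  obtain ⟨s, d, hs, hd, hsd⟩ := diag_comm w hw3 i j hij
  obtain ⟨a, ha, ha2⟩ := f.mono s (fun _ => 1) hs (by simp)
  obtain ⟨b, hb, hb2⟩ := f.mono 1 d (by simp) hd
  simp only [Units.val_one, one_mul] at ha2
  simp only [inv_one, Perm.one_apply] at hb2
  have ha3 : ∀ v t, f.lab (h.act a⁻¹ v) t = f.lab v (s t) := by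
    intro v t
    have h1 := ha2 (h.act a⁻¹ v) (s t)
    have h2 : h.act a (h.act a⁻¹ v) = v := by
      have : (h.act a * h.act a⁻¹) v = v := by rw [← map_mul, mul_inv_cancel, map_one]; rfl
      exact this
    rw [h2, inv_self_apply'] at h1
    exact h1.symm
  have hb3 : ∀ v t, f.lab (h.act b⁻¹ v) t = ((d t)⁻¹ : Fˣ) * f.lab v t := by
    intro v t
    have h1 := hb2 (h.act b⁻¹ v) t
    have h2 : h.act b (h.act b⁻¹ v) = v := by
      have : (h.act b * h.act b⁻¹) v = v := by rw [← map_mul, mul_inv_cancel, map_one]; rfl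
      exact this
    rw [h2] at h1
    rw [h1, ← mul_assoc, ← Units.val_mul, inv_mul_cancel, Units.val_one, one_mul]
  refine ⟨a, ha, b, hb, fun v t => ?_⟩
  have h4 : h.act ⁅a, b⁆ v = h.act a (h.act b (h.act a⁻¹ (h.act b⁻¹ v))) := by
    rw [commutatorElement_def, map_mul, map_mul, map_mul]; rfl
  rw [h4, ha2, hb2, ha3, hb3, self_inv_apply', ← mul_assoc, ← Units.val_mul, hsd]

omit f in
theorem comm_central {A : Type*} [Group A] {n1 n2 m1 m2 : A} (h1 : Commute n1 m1) (h2 : Commute n1 m2)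
    (h3 : Commute n1 n2) (h4 : Commute n2 m1) (h5 : Commute n2 m2) : ⁅n1 * m1, n2 * m2⁆ = ⁅m1, m2⁆ := by
  have e1 : Commute n1 (m1 * (n2 * m2) * m1⁻¹) := (h1.mul_right (h3.mul_right h2)).mul_right h1.inv_right
  have e2 : Commute n2 (m1 * m2 * m1⁻¹) := (h4.mul_right h5).mul_right h4.inv_right
  calc ⁅n1 * m1, n2 * m2⁆ = n1 * (m1 * (n2 * m2) * m1⁻¹) * n1⁻¹ * (n2 * m2)⁻¹ := by
        rw [commutatorElement_def]; group
    _ = m1 * (n2 * m2) * m1⁻¹ * (n2 * m2)⁻¹ := by rw [e1.eq]; group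
    _ = (m1 * n2) * (m2 * m1⁻¹) * (n2 * m2)⁻¹ := by group
    _ = n2 * (m1 * m2 * m1⁻¹) * (n2 * m2)⁻¹ := by rw [← h4.eq]; group
    _ = m1 * m2 * m1⁻¹ * n2 * (m2 * n2)⁻¹ := by rw [e2.eq, h5.eq]
    _ = ⁅m1, m2⁆ := by rw [commutatorElement_def]; group

/-- **the centraliser of `M / N`** -/
theorem mem_N_of_comm [Finite G] [hQN : Fact (Q ≤ N)] [hNM : Fact (N ≤ M)] {w : Fˣ} (hw : w ≠ 1) (hw3 : w ^ 3 = 1)
    (hF : ∀ c : F, c = 0 ∨ c = 1 ∨ c = w ∨ c = (w⁻¹ : Fˣ)) (c : Subgroup.centralizer ({z} : Set G))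
    (hc : ∀ m ∈ M, c * m * c⁻¹ * m⁻¹ ∈ N) : c ∈ N := by
  have hdec : ∀ m ∈ M, ∃ n ∈ N, c * m * c⁻¹ = n * m := fun m hm =>
    ⟨c * m * c⁻¹ * m⁻¹, hc m hm, by group⟩
  obtain ⟨u, hu⟩ := scalar_of_comm w hw hF
    ((f.lab.toAddMonoidHom.comp (h.act c).toLinearMap.toAddMonoidHom).comp f.lab.symm.toAddMonoidHom) (by
      intro x y hxy
      have h1 : f.lab (h.act c (f.lab.symm x)) = f.lab (h.act c (f.lab.symm y)) := hxy
      exact f.lab.symm.injective ((h.act c).injective (f.lab.injective h1)))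
    (by
      intro i j hij x
      show f.lab (h.act c (f.lab.symm _)) = fun t => _ * f.lab (h.act c (f.lab.symm x)) t
      obtain ⟨a, ha, b, hb, hab⟩ := exists_D f hw3 i j hij
      obtain ⟨n1, hn1, hn1'⟩ := hdec a ha
      obtain ⟨n2, hn2, hn2'⟩ := hdec b hb
      have h1 : h.act c * h.act ⁅a, b⁆ * (h.act c)⁻¹ = h.act ⁅a, b⁆ := by
        have h2 : h.act c * h.act ⁅a, b⁆ * (h.act c)⁻¹ = ⁅h.act n1 * h.act a, h.act n2 * h.act b⁆ := by
          rw [← map_mul h.act n1, ← map_mul h.act n2, ← hn1', ← hn2', ← map_commutatorElement, ← map_mul, ← map_inv,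
            ← map_mul]
          congr 1
          rw [commutatorElement_def, commutatorElement_def]; group
        rw [h2, comm_central (commute_act f hn1 ha) (commute_act f hn1 hb) (commute_act f hn1 (hNM.out hn2))
          (commute_act f hn2 ha) (commute_act f hn2 hb), map_commutatorElement]
      have h3 : ∀ v, h.act c (h.act ⁅a, b⁆ v) = h.act ⁅a, b⁆ (h.act c v) := by
        intro v
        have h4 : (h.act c * h.act ⁅a, b⁆) v = (h.act ⁅a, b⁆ * h.act c) v := by
          rw [← mul_inv_eq_iff_eq_mul.1 h1]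
        exact h4
      have h5 : (f.lab.symm (fun t => ((dd w i j t : Fˣ) : F) * x t)) = h.act ⁅a, b⁆ (f.lab.symm x) := by
        apply f.lab.injective
        rw [AddEquiv.apply_symm_apply]
        funext t
        rw [hab, AddEquiv.apply_symm_apply]
      rw [h5, h3]
      funext t
      rw [hab])
    (by
      intro s hs
      obtain ⟨a, ha, ha2⟩ := f.mono s (fun _ => 1) hs (by simp)
      simp only [Units.val_one, one_mul] at ha2
      obtain ⟨n1, hn1, hn1'⟩ := hdec a ha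
      obtain ⟨u, hu⟩ := f.scal n1 hn1
      refine ⟨u, fun x => ?_⟩
      show f.lab (h.act c (f.lab.symm _)) = (u : F) • fun t => f.lab (h.act c (f.lab.symm x)) (s⁻¹ t)
      have h5 : (f.lab.symm (fun t => x (s⁻¹ t))) = h.act a (f.lab.symm x) := by
        apply f.lab.injective
        rw [AddEquiv.apply_symm_apply]
        funext t
        rw [ha2, AddEquiv.apply_symm_apply]
      have h3 : ∀ v, h.act c (h.act a v) = h.act n1 (h.act a (h.act c v)) := by
        intro v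
        have h4 : (h.act c * h.act a) v = (h.act n1 * (h.act a * h.act c)) v := by
          rw [← map_mul, ← map_mul, ← map_mul]
          have : c * a = n1 * (a * c) := by
            rw [← mul_assoc, ← hn1']; group
          rw [this]
        exact h4
      rw [h5, h3, hu]
      funext t
      rw [Pi.smul_apply, Pi.smul_apply, ha2])
  obtain ⟨n, hn, hn2⟩ := f.scal' u
  have h1 : n⁻¹ * c ∈ Q := by
    rw [← act_eq_one h, map_mul, map_inv, inv_mul_eq_one]
    ext v
    apply f.lab.injective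
    have h2 : f.lab (h.act c (f.lab.symm (f.lab v))) = (u : F) • f.lab v := hu (f.lab v)
    rw [AddEquiv.symm_apply_apply] at h2
    show f.lab (h.act n v) = f.lab (h.act c v)
    rw [h2, hn2]
  have h2 : c = n * (n⁻¹ * c) := by group
  rw [h2]
  exact N.mul_mem hn (hQN.out h1)

end

end Cfsg.Agent.H816.FrameFacts
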