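import Cfsg.Agent.H816.FrameFacts

/-!
# Consequences of `FrameData`, part 2: `M` is perfect, normal subgroups of the centraliser
-/

set_option autoImplicit false

namespace Cfsg.Agent.H816.FrameFacts

open scoped commutatorElement
open Subgroup Cfsg.Agent.Co2Type.Quad Cfsg.Agent.R08.Frame Cfsg.Agent.H816.Mono6 Equiv

variable {G : Type*} [Group G] {z : G} {Q N M : Subgroup (Subgroup.centralizer ({z} : Set G))}
variable {h : Large (Q.map (Subgroup.centralizer ({z} : Set G)).subtype) z}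
variable {F : Type*} [Field F] (f : FrameData h N M F)

include f

/-- the scalars are realised by elements of `⁅M, M⁆` -/
theorem exists_scalar {w : Fˣ} (hw3 : w ^ 3 = 1)
    (hF : ∀ c : F, c = 0 ∨ c = 1 ∨ c = w ∨ c = (w⁻¹ : Fˣ)) (u : Fˣ) :
    ∃ g ∈ ⁅M, M⁆, ∀ v, f.lab (h.act g v) = (u : F) • f.lab v := by
  have hD : ∀ i j : Fin 6, i ≠ j → ∃ g ∈ ⁅M, M⁆, ∀ v t, f.lab (h.act g v) t = ((dd w i j t : Fˣ) : F) * f.lab v t := by
    intro i j hij
    obtain ⟨a, ha, b, hb, hab⟩ := exists_D f hw3 i j hij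
    exact ⟨_, commutator_mem_commutator ha hb, hab⟩
  have hmul : ∀ (g g' : Subgroup.centralizer ({z} : Set G)) (v : h.V), h.act (g * g') v = h.act g (h.act g' v) := by
    intro g g' v
    rw [map_mul]; rfl
  obtain ⟨g01, h01, e01⟩ := hD 0 1 (by decide)
  obtain ⟨g12, h12, e12⟩ := hD 1 2 (by decide)
  obtain ⟨g34, h34, e34⟩ := hD 3 4 (by decide)
  obtain ⟨g45, h45, e45⟩ := hD 4 5 (by decide)
  have hwg : ∃ g ∈ ⁅M, M⁆, ∀ v, f.lab (h.act g v) = (w : F) • f.lab v := by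
    refine ⟨g01 * (g12 * g12) * (g34 * (g45 * g45)), mul_mem (mul_mem h01 (mul_mem h12 h12))
      (mul_mem h34 (mul_mem h45 h45)), fun v => ?_⟩
    funext t
    simp only [hmul, e01, e12, e34, e45]
    rw [Pi.smul_apply, smul_eq_mul]
    simp only [← mul_assoc, ← Units.val_mul]
    congr 2
    have h2 : w⁻¹ * w⁻¹ = w := by
      rw [← mul_inv_rev, inv_eq_iff_mul_eq_one, ← pow_two, ← pow_succ]; exact hw3
    have e1 : ∀ i j : Fin 6, i ≠ j → dd w i j i = w := fun i j hij => dd_left w hij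
    have e2 : ∀ i j : Fin 6, i ≠ j → dd w i j j = w⁻¹ := fun i j hij => dd_right w hij
    have e3 : ∀ i j t : Fin 6, t ≠ i → t ≠ j → dd w i j t = 1 := fun i j t h1 h2 => dd_other w h1 h2
    fin_cases t
    · show dd w 0 1 0 * dd w 1 2 0 * dd w 1 2 0 * dd w 3 4 0 * dd w 4 5 0 * dd w 4 5 0 = w
      rw [e1 0 1 (by decide), e3 1 2 0 (by decide) (by decide), e3 3 4 0 (by decide) (by decide),
        e3 4 5 0 (by decide) (by decide)]; group
    · show dd w 0 1 1 * dd w 1 2 1 * dd w 1 2 1 * dd w 3 4 1 * dd w 4 5 1 * dd w 4 5 1 = w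
      rw [e2 0 1 (by decide), e1 1 2 (by decide), e3 3 4 1 (by decide) (by decide),
        e3 4 5 1 (by decide) (by decide)]; group
    · show dd w 0 1 2 * dd w 1 2 2 * dd w 1 2 2 * dd w 3 4 2 * dd w 4 5 2 * dd w 4 5 2 = w
      rw [e3 0 1 2 (by decide) (by decide), e2 1 2 (by decide), e3 3 4 2 (by decide) (by decide),
        e3 4 5 2 (by decide) (by decide), one_mul, mul_one, mul_one, mul_one, h2]
    · show dd w 0 1 3 * dd w 1 2 3 * dd w 1 2 3 * dd w 3 4 3 * dd w 4 5 3 * dd w 4 5 3 = w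
      rw [e3 0 1 3 (by decide) (by decide), e3 1 2 3 (by decide) (by decide), e1 3 4 (by decide),
        e3 4 5 3 (by decide) (by decide)]; group
    · show dd w 0 1 4 * dd w 1 2 4 * dd w 1 2 4 * dd w 3 4 4 * dd w 4 5 4 * dd w 4 5 4 = w
      rw [e3 0 1 4 (by decide) (by decide), e3 1 2 4 (by decide) (by decide), e2 3 4 (by decide),
        e1 4 5 (by decide)]; group
    · show dd w 0 1 5 * dd w 1 2 5 * dd w 1 2 5 * dd w 3 4 5 * dd w 4 5 5 * dd w 4 5 5 = w
      rw [e3 0 1 5 (by decide) (by decide), e3 1 2 5 (by decide) (by decide),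
        e3 3 4 5 (by decide) (by decide), e2 4 5 (by decide), one_mul, one_mul, one_mul, one_mul, h2]
  obtain ⟨g, hg, hgw⟩ := hwg
  rcases hF (u : F) with h1 | h1 | h1 | h1
  · exact absurd h1 u.ne_zero
  · refine ⟨1, one_mem _, fun v => ?_⟩
    rw [h1, one_smul, map_one]; rfl
  · refine ⟨g, hg, fun v => ?_⟩
    rw [h1, hgw]
  · refine ⟨g * g, mul_mem hg hg, fun v => ?_⟩
    rw [h1, hmul, hgw, hgw, smul_smul, ← Units.val_mul]
    congr 2
    rw [← pow_two, eq_inv_iff_mul_eq_one, ← pow_succ]; exact hw3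

variable [Finite G] [hQn : Q.Normal] [hMn : M.Normal]

/-- **`M` is perfect** -/
theorem perfect {w : Fˣ} (hw : w ≠ 1) (hw3 : w ^ 3 = 1)
    (hF : ∀ c : F, c = 0 ∨ c = 1 ∨ c = w ∨ c = (w⁻¹ : Fˣ)) (hMp : M ≤ ⁅M, M⁆ ⊔ N) : ⁅M, M⁆ = M := by
  apply le_antisymm (commutator_le_self M)
  have h1 : Q ≤ ⁅M, M⁆ := by
    rcases le_or_ge f hw ⁅M, M⁆ with h2 | h2
    · exfalso
      obtain ⟨a, ha, b, hb, hab⟩ := exists_D f hw3 0 1 (by decide)
      have h3 := (act_eq_one h _).2 (h2 (commutator_mem_commutator ha hb))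
      have h4 := hab (f.lab.symm fun _ => 1) 0
      rw [h3] at h4
      have h5 : f.lab ((1 : h.V ≃ₗ[ZMod 2] h.V) (f.lab.symm fun _ => 1)) = fun _ => 1 := by
        show f.lab (f.lab.symm fun _ => 1) = _
        rw [AddEquiv.apply_symm_apply]
      rw [h5, AddEquiv.apply_symm_apply, dd_left w (by decide), mul_one] at h4
      exact hw (Units.ext h4.symm)
    · exact h2
  have h2 : N ≤ ⁅M, M⁆ := by
    intro n hn
    obtain ⟨u, hu⟩ := f.scal n hn
    obtain ⟨g, hg, hgu⟩ := exists_scalar f hw3 hF u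
    have h3 : g⁻¹ * n ∈ Q := by
      rw [← act_eq_one h, map_mul, map_inv, inv_mul_eq_one]
      ext v
      apply f.lab.injective
      rw [hgu, hu]
    have h4 : n = g * (g⁻¹ * n) := by group
    rw [h4]
    exact mul_mem hg (h1 h3)
  exact hMp.trans (sup_le le_rfl h2)

variable [hNn : N.Normal]

/-- **normal subgroups of the centraliser** -/
theorem dich (hQN : Q ≤ N) (hNM : N ≤ M) {w : Fˣ} (hw : w ≠ 1) (hw3 : w ^ 3 = 1)
    (hF : ∀ c : F, c = 0 ∨ c = 1 ∨ c = w ∨ c = (w⁻¹ : Fˣ)) (hMp : ⁅M, M⁆ = M)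
    (hsimp : ∀ Y : Subgroup (Subgroup.centralizer ({z} : Set G)), Y.Normal → N ≤ Y → Y ≤ M → Y = N ∨ Y = M)
    (W : Subgroup (Subgroup.centralizer ({z} : Set G))) [hWn : W.Normal] : W ≤ Q ∨ M ≤ W ∨ (Q ≤ W ∧ W ≤ N) := by
  rcases le_or_ge f hw W with h1 | h1
  · exact Or.inl h1
  right
  rcases hsimp ((W ⊓ M) ⊔ N) inferInstance le_sup_right (sup_le inf_le_right hNM) with h2 | h2
  · right
    refine ⟨h1, fun c hc => ?_⟩
    have : Fact (Q ≤ N) := ⟨hQN⟩
    have : Fact (N ≤ M) := ⟨hNM⟩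
    refine mem_N_of_comm f hw hw3 hF c fun m hm => ?_
    rw [← h2]
    refine mem_sup_left ⟨?_, M.mul_mem (hMn.conj_mem m hm c) (M.inv_mem hm)⟩
    rw [mul_assoc, mul_assoc, ← mul_assoc m]
    exact W.mul_mem hc (hWn.conj_mem _ (W.inv_mem hc) m)
  · left
    rw [← hMp, commutator_le]
    intro a ha b hb
    rw [← h2] at ha
    obtain ⟨x, hx, n, hn, rfl⟩ := mem_sup_of_normal_right.1 ha
    have h3 : ⁅n, b⁆ ∈ Q := by
      rw [← act_eq_one h, map_commutatorElement, commutatorElement_eq_one_iff_commute]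
      exact commute_act f hn hb
    have h4 : ⁅x * n, b⁆ = x * ⁅n, b⁆ * x⁻¹ * (x * (b * x⁻¹ * b⁻¹)) := by
      simp only [commutatorElement_def]; group
    rw [h4]
    exact mul_mem (hWn.conj_mem _ (h1 h3) x) (mul_mem hx.1 (hWn.conj_mem _ (inv_mem hx.1) b))

end Cfsg.Agent.H816.FrameFacts
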