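import Cfsg.Agent.H816.IMM
import Cfsg.Agent.H419.Row
import Cfsg.Agent.H713.Engine
import Cfsg.Agent.H620.PNorm

/-!
# Characters of defect zero of the Monster from the rank 9 permutation character (helper816)

* `hasDZ` : the Monster has a character of `p`-defect zero for
  `p = 11, 13, 17, 19, 23, 29, 31, 41, 47, 59, 71`;
* `m_11`, `m_13` : the rows of S4555/S4559.
-/

set_option autoImplicit false

namespace Cfsg.Agent.H816.MEleven

open Cfsg Cfsg.Agent.H665.NoPQ Cfsg.Agent.H419.Row Cfsg.Agent.H816.IMM

universe u

variable {K : Type u} [Group K]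

theorem finite_of (h : Spor.IsoM K) : Finite K := Nat.finite_of_card_ne_zero (by rw [card_eq h]; norm_num)

theorem dz_of (h : Spor.IsoM K) {d n m p : ℕ} (hp : p.Prime) (hχ : ∃ χ : K → ℂ, IsIrrCharacter K χ ∧ χ 1 = (d : ℂ))
    (hd : p ^ n ∣ d) (hc : 808017424794512875886459904961710757005754368000000000 = p ^ n * m) (hm : ¬ p ∣ m) :
    HasDZ p K := by
  have := finite_of h
  obtain ⟨χ, h1, h2⟩ := hχ
  refine dz_of_dvd (⟨χ, h1⟩ : IrrCharacter K) (n := n) ?_ ?_ hp
  · rw [Blocks.Basic.charDegree_of_eq h2]; exact hd
  · rw [card_eq h, hc, Nat.factorization_mul (pow_ne_zero _ hp.ne_zero) (by rintro rfl; exact hm (dvd_zero _)),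
      hp.factorization_pow, Finsupp.add_apply, Finsupp.single_eq_same, Nat.factorization_eq_zero_of_not_dvd hm,
      add_zero]

theorem dz_11 (h : Spor.IsoM K) : HasDZ 11 K :=
  dz_of h (d := 49609712911192813665) (n := 2) (m := 6677829956979445255259999214559593033105408000000000)
    (by norm_num) (by exact_mod_cast exists_chi_49609712911192813665 h) (by norm_num) (by norm_num) (by norm_num)

theorem dz_13 (h : Spor.IsoM K) : HasDZ 13 K :=
  dz_of h (d := 47377503606648784400) (n := 3) (m := 367782168773105542051187940355808264454144000000000)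
    (by norm_num) (by exact_mod_cast exists_chi_47377503606648784400 h) (by norm_num) (by norm_num) (by norm_num)

theorem dz_17 (h : Spor.IsoM K) : HasDZ 17 K :=
  dz_of h (d := 36173193327999) (n := 1) (m := 47530436752618404463909406174218279823867904000000000)
    (by norm_num) (by exact_mod_cast exists_chi_36173193327999 h) (by norm_num) (by norm_num) (by norm_num)

theorem dz_19 (h : Spor.IsoM K) : HasDZ 19 K :=
  dz_of h (d := 36173193327999) (n := 1) (m := 42527232883921730309813679208511092473987072000000000)
    (by norm_num) (by exact_mod_cast exists_chi_36173193327999 h) (by norm_num) (by norm_num) (by norm_num)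

theorem dz_23 (h : Spor.IsoM K) : HasDZ 23 K :=
  dz_of h (d := 18538750076) (n := 1) (m := 35131192382370125038541734998335250304598016000000000)
    (by norm_num) (by exact_mod_cast exists_chi_18538750076 h) (by norm_num) (by norm_num) (by norm_num)

theorem dz_29 (h : Spor.IsoM K) : HasDZ 29 K :=
  dz_of h (d := 18538750076) (n := 1) (m := 27862669820500443996084824309024508862267392000000000)
    (by norm_num) (by exact_mod_cast exists_chi_18538750076 h) (by norm_num) (by norm_num) (by norm_num)

theorem dz_31 (h : Spor.IsoM K) : HasDZ 31 K :=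
  dz_of h (d := 18538750076) (n := 1) (m := 26065078219177834706014835643926153451798528000000000)
    (by norm_num) (by exact_mod_cast exists_chi_18538750076 h) (by norm_num) (by norm_num) (by norm_num)

theorem dz_41 (h : Spor.IsoM K) : HasDZ 41 K :=
  dz_of h (d := 18538750076) (n := 1) (m := 19707742068158850631377070852724652609896448000000000)
    (by norm_num) (by exact_mod_cast exists_chi_18538750076 h) (by norm_num) (by norm_num) (by norm_num)

theorem dz_47 (h : Spor.IsoM K) : HasDZ 47 K :=
  dz_of h (d := 196883) (n := 1) (m := 17191860102010912252903402233227888446930944000000000)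
    (by norm_num) (by exact_mod_cast exists_chi_196883 h) (by norm_num) (by norm_num) (by norm_num)

theorem dz_59 (h : Spor.IsoM K) : HasDZ 59 K :=
  dz_of h (d := 196883) (n := 1) (m := 13695210589737506370956947541723911135690752000000000)
    (by norm_num) (by exact_mod_cast exists_chi_196883 h) (by norm_num) (by norm_num) (by norm_num)

theorem dz_71 (h : Spor.IsoM K) : HasDZ 71 K :=
  dz_of h (d := 196883) (n := 1) (m := 11380527109781871491358590210728320521207808000000000)
    (by norm_num) (by exact_mod_cast exists_chi_196883 h) (by norm_num) (by norm_num) (by norm_num)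

/-- The element of order `p`. -/
theorem vOrdP_of {p : ℕ} (hp : p.Prime) (h : Spor.IsoM K) (hd : p ∣ Nat.card K) (h0 : HasDZ p K) :
    Cfsg.Agent.H620.PNorm.VOrdP p K := by
  have := finite_of h
  have : Fact p.Prime := ⟨hp⟩
  obtain ⟨x, hx⟩ := exists_prime_orderOf_dvd_card' p hd
  exact ⟨x, hx, Cfsg.Agent.H713.HasDZ.vz h0 (by rw [hx])⟩

theorem m_11 (h : Spor.IsoM K) : Cfsg.Agent.H620.PNorm.VOrdP 11 K :=
  vOrdP_of (by norm_num) h (by rw [card_eq h]; norm_num) (dz_11 h)

theorem m_13 (h : Spor.IsoM K) : Cfsg.Agent.H620.PNorm.VOrdP 13 K :=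
  vOrdP_of (by norm_num) h (by rw [card_eq h]; norm_num) (dz_13 h)

end Cfsg.Agent.H816.MEleven
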