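import Mathlib
import Cfsg.Agent.H816.Quasi
import Cfsg.Prelude.Def_CaseTheorems

set_option autoImplicit false

/-!
# An involution with quasisimple centralizer of type `2·M(22)`: type M(23)
-/

namespace Cfsg.Agent.H816.Quasi

open Cfsg Cfsg.Agent.SporadicStructure.FischerSpace
open Cfsg.Agent.Fischer480.Defs

universe u

theorem simple_quot {C : Type u} [Group C] (hq : Cfsg.IsQuasisimple C) (N : Subgroup C) [N.Normal]
    (hN : N ≤ Subgroup.center C) (hc : Subgroup.center (C ⧸ N) = ⊥) :
    IsSimpleGroup (C ⧸ N) ∧ commutator (C ⧸ N) = ⊤ := by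
  have h1 : Subgroup.center C ≤ N := by
    intro z hz
    have h2 : (QuotientGroup.mk' N z) ∈ Subgroup.center (C ⧸ N) := by
      rw [Subgroup.mem_center_iff]
      intro g
      obtain ⟨g, rfl⟩ := QuotientGroup.mk'_surjective N g
      rw [← map_mul, Subgroup.mem_center_iff.1 hz g, map_mul]
    rw [hc, Subgroup.mem_bot] at h2
    exact (QuotientGroup.eq_one_iff z).1 h2
  have h2 : N = Subgroup.center C := le_antisymm hN h1
  constructor
  · have := hq.2
    exact (QuotientGroup.quotientMulEquivOfEq h2).isSimpleGroup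
  · have h3 : commutator C = ⊤ := hq.1.commutator_eq_top
    have h4 : (commutator C).map (QuotientGroup.mk' N) = commutator (C ⧸ N) := by
      rw [commutator_def, Subgroup.map_commutator, commutator_def,
        Subgroup.map_top_of_surjective _ (QuotientGroup.mk'_surjective N)]
    rw [← h4, h3, Subgroup.map_top_of_surjective _ (QuotientGroup.mk'_surjective N)]

theorem main {G : Type u} [Group G] [Finite G] (d : G) (hd : orderOf d = 2)
    (hq : Cfsg.IsQuasisimple (Subgroup.centralizer ({d} : Set G)))
    [((Subgroup.zpowers d).subgroupOf (Subgroup.centralizer ({d} : Set G))).Normal]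
    (htype : ∃ E : Set ((Subgroup.centralizer ({d} : Set G)) ⧸
      (Subgroup.zpowers d).subgroupOf (Subgroup.centralizer ({d} : Set G))),
      Cfsg.IsThreeTranspositionClass E ∧ Cfsg.IsOfTypeM22 _ E)
    (hnwc : ∃ g : G, g * d * g⁻¹ ∈ Subgroup.centralizer ({d} : Set G) ∧ g * d * g⁻¹ ≠ d) :
    Cfsg.IsThreeTranspositionClass (conjugatesOf d) ∧ Cfsg.IsOfTypeM23 G (conjugatesOf d) := by
  set C := Subgroup.centralizer ({d} : Set G) with hC
  set N := (Subgroup.zpowers d).subgroupOf C with hN
  obtain ⟨E, hE, hM⟩ := htype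
  have hdC : d ∈ C := Subgroup.mem_centralizer_singleton_iff.2 rfl
  have hNc : N ≤ Subgroup.center C := by
    intro z hz
    rw [Subgroup.mem_subgroupOf] at hz
    obtain ⟨k, hk⟩ := Subgroup.mem_zpowers_iff.1 hz
    rw [Subgroup.mem_center_iff]
    intro g
    apply Subtype.ext
    have h1 : Commute (g : G) d := Subgroup.mem_centralizer_singleton_iff.1 g.2
    show (g : G) * z = z * g
    rw [← hk]
    exact (h1.zpow_right k).eq
  obtain ⟨hs, hp⟩ := simple_quot hq N hNc hM.1
  have FE : FGroup E := fgroup_of_simple hE hs hp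
  have h6 : IsT6 E := Cfsg.Agent.H831.Types.m22_isT6 (Cfsg.Agent.H831.Types.inh_of_defs FE) hM
  obtain ⟨e, -, heE⟩ := Cfsg.Agent.H845.T6Iso.exists_iso FE h6
  obtain ⟨f⟩ := Cfsg.Agent.S1714.result d hd hq ⟨e.symm⟩ hnwc
  -- `T` is of type `T6`
  have hT : IsT6 Cfsg.Agent.R01.Fi22Facts.T := by
    refine Cfsg.Agent.Fischer480.Transport.isT6 (cIso_map e (E' := E) (fun x => ?_)) h6
    rw [← heE]
    exact e.injective.mem_set_image
  have h7 := isT7_of hT
  -- `d` is a transposition
  have h13 : 13 ∣ Nat.card (Subgroup.centralizer ({f d} : Set Cfsg.Spor.Fi23)) := by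
    have h1 : Nat.card C = Nat.card (Subgroup.centralizer ({f d} : Set Cfsg.Spor.Fi23)) := by
      have h2 : C.map (f : G →* Cfsg.Spor.Fi23) =
          Subgroup.centralizer ({f d} : Set Cfsg.Spor.Fi23) := by
        ext y
        rw [Subgroup.mem_centralizer_singleton_iff]
        constructor
        · rintro ⟨x, hx, rfl⟩
          have h3 : x * d = d * x := Subgroup.mem_centralizer_singleton_iff.1 hx
          show f x * f d = f d * f x
          rw [← map_mul, h3, map_mul]
        · intro hy
          refine ⟨f.symm y, Subgroup.mem_centralizer_singleton_iff.2 ?_, f.apply_symm_apply y⟩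
          apply f.injective
          rw [map_mul, map_mul, f.apply_symm_apply]
          exact hy
      rw [← h2]
      exact (Nat.card_congr (C.equivMapOfInjective _ f.injective).toEquiv)
    rw [← h1]
    have h2 : Nat.card (C ⧸ N) = 64561751654400 := by
      rw [← Nat.card_congr e.toEquiv]
      exact Cfsg.Agent.S1696.result.2
    have h3 : Nat.card (C ⧸ N) ∣ Nat.card C := N.card_quotient_dvd_card
    rw [h2] at h3
    exact dvd_trans (by norm_num) h3
  have hd1 : d ≠ 1 := by
    rintro rfl
    rw [orderOf_one] at hd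
    omega
  have hdd : d * d = 1 := by rw [← pow_two, ← hd, pow_orderOf_eq_one]
  have hconj := isConj_of_thirteen (x := f d) (by rw [← map_mul, hdd, map_one])
    (fun h => hd1 (f.injective (by rw [h, map_one]))) h13
  -- the classes correspond
  have hcl : ∀ x : Cfsg.Spor.Fi23, f.symm x ∈ conjugatesOf d ↔
      x ∈ (Cfsg.Agent.R08.FiTwentyThree.D : Set Cfsg.Spor.Fi23) := by
    intro x
    constructor
    · intro h
      obtain ⟨g, hg⟩ := isConj_iff.1 (show IsConj d (f.symm x) from h)
      have h1 : IsConj (f d) x := by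
        refine isConj_iff.2 ⟨f g, ?_⟩
        rw [← map_inv, ← map_mul, ← map_mul, hg, f.apply_symm_apply]
      exact hconj.symm.trans h1
    · intro h
      have h1 : IsConj (f d) x := hconj.trans h
      obtain ⟨g, hg⟩ := isConj_iff.1 h1
      refine isConj_iff.2 ⟨f.symm g, ?_⟩
      rw [← hg]
      simp
  have hcls : IsThreeTranspositionClass (conjugatesOf d) :=
    class_map f.symm hcl Cfsg.Agent.R08.FiTwentyThree.isThreeTranspositionClass
  have hG : IsSimpleGroup G := by
    have := isSimple23
    exact f.isSimpleGroup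
  have hGp : commutator G = ⊤ := by
    have h1 : (commutator Cfsg.Spor.Fi23).map (f.symm : Cfsg.Spor.Fi23 →* G) = commutator G := by
      rw [commutator_def, Subgroup.map_commutator, commutator_def,
        Subgroup.map_top_of_surjective _ f.symm.surjective]
    rw [← h1, comm_top, Subgroup.map_top_of_surjective _ f.symm.surjective]
  have FG : FGroup (conjugatesOf d) := fgroup_of_simple hcls hG hGp
  have h7G : IsT7 (conjugatesOf d) := by
    refine Cfsg.Agent.Fischer480.Transport.isT7
      (Cfsg.Agent.Fischer480.Transport.CIso.symm (cIso_map f.symm hcl)) h7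
  exact ⟨hcls, Cfsg.Agent.H830.TypeConv.isOfTypeM23 FG h7G⟩

end Cfsg.Agent.H816.Quasi
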