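import Cfsg.Agent.H316.RedPerf
import Cfsg.Agent.H316.RedSimple

/-!
# The reduction of `H316/Red*` with a weaker dichotomy (helper816)

Copy of the files `H316/RedBase`, `RedCore`, `RedPerf`, `RedFuse`, `RedSimple` (helper316) for the structure `SetupW`, where
the field `dich` is weakened: a normal subgroup `N` of `C(z)` is contained in `J`, or contains `X`, or contains `J` with
odd index (the last case occurs for `C(z) / J = 3.U₄(3)...`).
-/

set_option autoImplicit false

namespace Cfsg.Agent.H816.Red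

open Subgroup
open scoped commutatorElement Pointwise
open Cfsg.Agent.H316.Red (Ce mem_Ce mem_Ce' mem_zpowers_two eq_of_card_le_two commute_of_card_le_two
  le_normalizer_inf le_normalizer_commutator perfect_centralizes normalizer_le_normalizer_map hom_eq_one
  commutator_eq_top solvable_perm_of_le quotAction perfect_quot perfect_quot' exists_proj commutator_subgroupOf)
open Cfsg.Agent.GH.C2GrowG (mem_normalizer_of conj_mem exists_mem_normalizer)
open Cfsg.Agent.Lib.MinNormalNonabelian (minSet map_conj_mem_minSet nonabelian_structure)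

variable {G : Type*} [Group G]

structure SetupW (z : G) (J X : Subgroup G) : Prop where
  hz : orderOf z = 2
  J_le : J ≤ Ce z
  J_norm : Ce z ≤ normalizer (J : Set G)
  J_two : IsPGroup 2 J
  J_max : ∀ N : Subgroup G, N ≤ Ce z → Ce z ≤ normalizer (N : Set G) → IsPGroup 2 N → N ≤ J
  J_cent : Ce z ⊓ centralizer (J : Set G) ≤ J
  J_comm : ⁅J, J⁆ = zpowers z
  X_le : X ≤ Ce z
  X_perfect : ⁅X, X⁆ = X
  X_max : ∀ Y : Subgroup G, Y ≤ Ce z → ⁅Y, Y⁆ = Y → Y ≤ X
  X_not : ¬ X ≤ J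
  small : ∀ N : Subgroup G, N ≤ Ce z → Ce z ≤ normalizer (N : Set G) → z ∉ N → Nat.card N ≤ 2
  act : ∀ W : Subgroup G, W ≤ J → Ce z ≤ normalizer (W : Set G) → (∀ x ∈ W, ∀ y ∈ W, x * y = y * x) →
    X ≤ centralizer (W : Set G)
  dich : ∀ N : Subgroup G, N ≤ Ce z → Ce z ≤ normalizer (N : Set G) → N ≤ J ∨ X ≤ N ∨
    (J ≤ N ∧ Odd (J.relIndex N))


/-! ### RedBase.lean -/

namespace SetupW

variable {z : G} {J X : Subgroup G} (h : SetupW z J X)
include h

theorem zz : z * z = 1 := by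
  rw [← pow_two, ← h.hz, pow_orderOf_eq_one]

theorem z_ne : z ≠ 1 := by
  intro h1
  have := h.hz
  rw [h1, orderOf_one] at this
  omega

theorem z_inv : z⁻¹ = z := inv_eq_of_mul_eq_one_left h.zz

theorem z_mem_J : z ∈ J := by
  have h1 : z ∈ ⁅J, J⁆ := by rw [h.J_comm]; exact mem_zpowers z
  exact commutator_le_self J h1

omit h in
theorem z_mem_Ce : z ∈ Ce z := mem_Ce.2 rfl

/-- a nonabelian subgroup of `J` has derived subgroup `⟨z⟩` -/
theorem commutator_eq {Y : Subgroup G} (hY : Y ≤ J) (hna : ¬ ∀ x ∈ Y, ∀ y ∈ Y, x * y = y * x) :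
    ⁅Y, Y⁆ = zpowers z := by
  apply le_antisymm
  · rw [← h.J_comm]; exact commutator_mono hY hY
  · rw [zpowers_le]
    push Not at hna
    obtain ⟨x, hx, y, hy, hxy⟩ := hna
    have h1 : ⁅x, y⁆ ∈ ⁅Y, Y⁆ := commutator_mem_commutator hx hy
    have h2 : ⁅x, y⁆ ∈ zpowers z := by
      rw [← h.J_comm]; exact commutator_mem_commutator (hY hx) (hY hy)
    rcases (mem_zpowers_two h.hz).1 h2 with h3 | h3
    · exact absurd (commutatorElement_eq_one_iff_mul_comm.1 h3) hxy
    · rw [← h3]; exact h1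

/-- what normalises a nonabelian subgroup of `J` centralises `z` -/
theorem mem_Ce_of_normalizer {Y : Subgroup G} (hY : Y ≤ J)
    (hna : ¬ ∀ x ∈ Y, ∀ y ∈ Y, x * y = y * x) {g : G} (hg : g ∈ normalizer (Y : Set G)) : g ∈ Ce z := by
  have h1 := h.commutator_eq hY hna
  have h2 : g ∈ normalizer ((⁅Y, Y⁆ : Subgroup G) : Set G) := by
    have h3 := le_normalizer_commutator (A := normalizer (Y : Set G)) (B := Y) (C := Y) le_rfl le_rfl
    exact h3 hg
  rw [h1] at h2
  have h3 : g * z * g⁻¹ ∈ zpowers z := (mem_normalizer_iff.1 h2 z).1 (mem_zpowers z)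
  rcases (mem_zpowers_two h.hz).1 h3 with h4 | h4
  · exfalso
    apply h.z_ne
    have : z = g⁻¹ * (g * z * g⁻¹) * g := by group
    rw [this, h4]; group
  · exact mem_Ce'.2 h4

theorem X_norm : Ce z ≤ normalizer (X : Set G) := by
  intro g hg
  rw [mem_normalizer_iff]
  have key : ∀ g ∈ Ce z, ∀ x ∈ X, g * x * g⁻¹ ∈ X := by
    intro g hg x hx
    have h1 : X.map (MulAut.conj g).toMonoidHom ≤ X := by
      apply h.X_max
      · rintro _ ⟨y, hy, rfl⟩
        exact mul_mem (mul_mem hg (h.X_le hy)) (inv_mem hg)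
      · rw [← map_commutator, h.X_perfect]
    exact h1 ⟨x, hx, rfl⟩
  intro x
  refine ⟨key g hg x, fun hx => ?_⟩
  have h2 := key g⁻¹ (inv_mem hg) _ hx
  have h3 : g⁻¹ * (g * x * g⁻¹) * g⁻¹⁻¹ = x := by group
  rwa [h3] at h2

/-- `X ∩ J` is not abelian. -/
theorem inf_not_abelian : ¬ ∀ x ∈ X ⊓ J, ∀ y ∈ X ⊓ J, x * y = y * x := by
  intro hab
  have h1 : X ≤ centralizer ((X ⊓ J : Subgroup G) : Set G) :=
    h.act _ inf_le_right (le_normalizer_inf h.X_norm h.J_norm) hab
  have h2 : X ≤ centralizer (J : Set G) := by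
    apply perfect_centralizes h.X_perfect
    intro x hx a ha y hy
    have h3 : ⁅a, x⁆ ∈ X ⊓ J := by
      constructor
      · rw [commutatorElement_def]
        exact mul_mem ((mem_normalizer_iff.1 (h.X_norm (h.J_le ha)) x).1 hx) (X.inv_mem hx)
      · rw [commutatorElement_def, mul_assoc, mul_assoc]
        refine mul_mem ha ?_
        rw [← mul_assoc]
        exact (mem_normalizer_iff.1 (h.J_norm (h.X_le hx)) a⁻¹).1 (J.inv_mem ha)
    exact (mem_centralizer_iff.1 (h1 hy) _ h3).symm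
  exact h.X_not fun x hx => h.J_cent ⟨h.X_le hx, h2 hx⟩

theorem z_mem_X : z ∈ X := by
  have h1 := h.commutator_eq inf_le_right h.inf_not_abelian
  have h2 : z ∈ ⁅X ⊓ J, X ⊓ J⁆ := by rw [h1]; exact mem_zpowers z
  exact (commutator_le_self (X ⊓ J) h2).1

/-- `O_2` of a subgroup of `C(z)` normalised by `C(z)` is contained in `J`. -/
theorem pCore_le {N : Subgroup G} (hN : N ≤ Ce z) (hn : Ce z ≤ normalizer (N : Set G)) :
    (Cfsg.pCore 2 N).map N.subtype ≤ J := by
  refine h.J_max _ ((map_subtype_le _).trans hN) ?_ ?_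
  · exact hn.trans (normalizer_le_normalizer_map _ (Cfsg.Agent.Lib.Cores.pCore_characteristic 2))
  · exact (Cfsg.Agent.Lib.Cores.pCore_isPGroup 2).map _

/-- `O_2(N) = N ∩ J` for a normal subgroup `N` of `C(z)`. -/
theorem pCore_eq {N : Subgroup G} (hN : N ≤ Ce z) (hn : Ce z ≤ normalizer (N : Set G)) :
    (Cfsg.pCore 2 N).map N.subtype = N ⊓ J := by
  apply le_antisymm
  · exact le_inf (map_subtype_le _) (h.pCore_le hN hn)
  · have h1 : ((N ⊓ J).subgroupOf N).Normal := by
      rw [normal_subgroupOf_iff_le_normalizer inf_le_left]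
      exact le_normalizer_inf le_normalizer (hN.trans h.J_norm)
    have h2 : (N ⊓ J).subgroupOf N ≤ Cfsg.pCore 2 N := by
      apply Cfsg.Agent.Lib.Cores.le_pCore h1
      exact (h.J_two.to_le inf_le_right).comap_of_injective _ (subtype_injective _)
    have h3 := map_mono (f := N.subtype) h2
    rwa [subgroupOf_map_subtype, inf_eq_left.2 (inf_le_left : N ⊓ J ≤ N)] at h3

/-- **Key lemma.** If `X` centralises the conjugate `g z g⁻¹`, then `g z g⁻¹ = z`. -/
theorem key [Finite G] {g : G} (hg : X ≤ Ce (g * z * g⁻¹)) : g ∈ Ce z := by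
  -- `g⁻¹ X g ≤ C(z)` is perfect, so it is `X`
  have h1 : X.map (MulAut.conj g⁻¹).toMonoidHom ≤ X := by
    apply h.X_max
    · rintro _ ⟨x, hx, rfl⟩
      have h2 : x * (g * z * g⁻¹) = (g * z * g⁻¹) * x := mem_Ce.1 (hg hx)
      show g⁻¹ * x * g⁻¹⁻¹ ∈ Ce z
      rw [mem_Ce]
      calc g⁻¹ * x * g⁻¹⁻¹ * z = g⁻¹ * (x * (g * z * g⁻¹)) * g := by group
        _ = g⁻¹ * ((g * z * g⁻¹) * x) * g := by rw [h2]
        _ = z * (g⁻¹ * x * g⁻¹⁻¹) := by group
    · rw [← map_commutator, h.X_perfect]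
  have h2 : g⁻¹ ∈ normalizer (X : Set G) := mem_normalizer_of fun x hx => h1 ⟨x, hx, rfl⟩
  have h3 : g ∈ normalizer (X : Set G) := by
    have := inv_mem h2
    rwa [inv_inv] at this
  have h4 : g ∈ normalizer ((X ⊓ J : Subgroup G) : Set G) := by
    rw [← h.pCore_eq h.X_le h.X_norm]
    exact normalizer_le_normalizer_map _ (Cfsg.Agent.Lib.Cores.pCore_characteristic 2) h3
  exact h.mem_Ce_of_normalizer inf_le_right h.inf_not_abelian h4

/-- conjugates of `z` in an abelian normal subgroup of `C(z)` inside `J`: only `z` -/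
theorem key_abelian [Finite G] {W : Subgroup G} (hW : W ≤ J) (hn : Ce z ≤ normalizer (W : Set G))
    (hab : ∀ x ∈ W, ∀ y ∈ W, x * y = y * x) {g : G} (hg : g * z * g⁻¹ ∈ W) : g ∈ Ce z := by
  apply h.key
  intro x hx
  rw [mem_Ce]
  exact (mem_centralizer_iff.1 (h.act W hW hn hab hx) _ hg).symm

/-- **Argument (a).** A 2-group `P` normalised by `J` with `|C_P(z)| ≤ 2` is centralised by `z`. -/
theorem le_of_small [Finite G] {P : Subgroup G} (hP : IsPGroup 2 P) (hn : J ≤ normalizer (P : Set G))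
    (hc : Nat.card (P ⊓ Ce z : Subgroup G) ≤ 2) : P ≤ Ce z := by
  by_contra hne
  set N : Subgroup G := P ⊓ Ce z with hN
  have hJN : J ≤ normalizer (N : Set G) := le_normalizer_inf hn (h.J_le.trans le_normalizer)
  have hNJ : ∀ j ∈ J, ∀ n ∈ N, j * n = n * j := fun j hj n hn' =>
    commute_of_card_le_two hc (fun x hx => (mem_normalizer_iff.1 (hJN hj) x).1 hx) hn'
  have hNN : ∀ x ∈ N, ∀ y ∈ N, x * y = y * x := fun x hx y hy =>
    commute_of_card_le_two hc (fun w hw => mul_mem (mul_mem hx hw) (inv_mem hx)) hy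
  have hN2 : IsPGroup 2 N := hP.to_le inf_le_left
  have hB : IsPGroup 2 (J ⊔ N : Subgroup G) := IsPGroup.to_sup_of_normal_right' h.J_two hN2 hJN
  have hBn : J ⊔ N ≤ normalizer (P : Set G) := sup_le hn (inf_le_left.trans le_normalizer)
  have hPB : ¬ P ≤ J ⊔ N := by
    intro hle
    apply hne
    exact hle.trans (sup_le h.J_le inf_le_right)
  obtain ⟨r, hrP, hrB, hrn⟩ := exists_mem_normalizer hP hB hBn hPB
  -- `r` normalises `[JN, JN] = ⟨z⟩`
  have hcomm : ⁅J ⊔ N, J ⊔ N⁆ = ⁅J, J⁆ := by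
    apply le_antisymm
    · rw [commutator_le]
      have hex : ∀ g ∈ J ⊔ N, ∃ j ∈ J, ∃ n ∈ N, g = j * n := by
        intro g hg
        have h1 : g ∈ ((J ⊔ N : Subgroup G) : Set G) := hg
        rw [coe_mul_of_left_le_normalizer_right J N hJN] at h1
        obtain ⟨j, hj, n, hn', rfl⟩ := Set.mem_mul.1 h1
        exact ⟨j, hj, n, hn', rfl⟩
      intro g hg g' hg'
      obtain ⟨j, hj, n, hn1, rfl⟩ := hex g hg
      obtain ⟨j', hj', n', hn2, rfl⟩ := hex g' hg'
      have e1 : n * (j' * n') * n⁻¹ = j' * n' := by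
        rw [mul_inv_eq_iff_eq_mul, ← mul_assoc, ← hNJ j' hj' n hn1, mul_assoc, hNN n hn1 n' hn2,
          mul_assoc]
      have e2 : n' * j⁻¹ * n'⁻¹ = j⁻¹ := by
        rw [mul_inv_eq_iff_eq_mul, hNJ j⁻¹ (inv_mem hj) n' hn2]
      have e3 : ⁅j * n, j' * n'⁆ = ⁅j, j'⁆ := by
        rw [commutatorElement_def, commutatorElement_def]
        calc j * n * (j' * n') * (j * n)⁻¹ * (j' * n')⁻¹
            = j * (n * (j' * n') * n⁻¹) * j⁻¹ * n'⁻¹ * j'⁻¹ := by group
          _ = j * (j' * n') * j⁻¹ * n'⁻¹ * j'⁻¹ := by rw [e1]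
          _ = j * j' * (n' * j⁻¹ * n'⁻¹) * j'⁻¹ := by group
          _ = j * j' * j⁻¹ * j'⁻¹ := by rw [e2]
      rw [e3]
      exact commutator_mem_commutator hj hj'
    · exact commutator_mono le_sup_left le_sup_left
  have hr : r ∈ Ce z := by
    have h1 : r ∈ normalizer ((⁅J ⊔ N, J ⊔ N⁆ : Subgroup G) : Set G) :=
      le_normalizer_commutator (A := normalizer ((J ⊔ N : Subgroup G) : Set G)) le_rfl le_rfl hrn
    rw [hcomm, h.J_comm] at h1
    have h3 : r * z * r⁻¹ ∈ zpowers z := (mem_normalizer_iff.1 h1 z).1 (mem_zpowers z)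
    rcases (mem_zpowers_two h.hz).1 h3 with h4 | h4
    · exfalso
      apply h.z_ne
      have : z = r⁻¹ * (r * z * r⁻¹) * r := by group
      rw [this, h4]; group
    · exact mem_Ce'.2 h4
  exact hrB (mem_sup_right ⟨hrP, hr⟩)

end SetupW

/-! ### RedPerf.lean -/

namespace SetupW

variable {z : G} {J X : Subgroup G} (h : SetupW z J X)
include h

/-- for `a ∈ J`, `|T : C_T(a)| ≤ 2` for `T ≤ J` -/
theorem relIndex_centralizer_le [Finite G] {T : Subgroup G} (hT : T ≤ J) {a : G} (ha : a ∈ J) :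
    (centralizer ({a} : Set G)).relIndex T ≤ 2 := by
  by_cases h1 : T ≤ centralizer ({a} : Set G)
  · rw [relIndex_eq_one.2 h1]; omega
  · obtain ⟨t, ht, hta⟩ := SetLike.not_le_iff_exists.1 h1
    have hcm : ∀ s ∈ T, ⁅s, a⁆ = 1 ∨ ⁅s, a⁆ = z := by
      intro s hs
      rw [← mem_zpowers_two h.hz, ← h.J_comm]
      exact commutator_mem_commutator (hT hs) ha
    have hz2 : ∀ s ∈ T, s * z = z * s := fun s hs => mem_Ce.1 (h.J_le (hT hs))
    have h2 : (centralizer ({a} : Set G)).relIndex T = 2 := by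
      rw [relIndex_eq_two_iff]
      have hmc : ∀ s : G, s ∈ centralizer ({a} : Set G) ↔ ⁅s, a⁆ = 1 := by
        intro s
        rw [mem_centralizer_singleton_iff, commutatorElement_eq_one_iff_mul_comm]
      refine ⟨t, ht, fun b hb => ?_⟩
      rw [hmc, hmc]
      have hta' : ⁅t, a⁆ = z := by
        rcases hcm t ht with h3 | h3
        · exact absurd ((hmc t).2 h3) hta
        · exact h3
      have e1 : ⁅b * t, a⁆ = ⁅b, a⁆ * z := by
        have e2 : ⁅b * t, a⁆ = b * ⁅t, a⁆ * b⁻¹ * ⁅b, a⁆ := by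
          simp only [commutatorElement_def]; group
        rw [e2, hta', hz2 b hb, mul_inv_cancel_right]
        rcases hcm b hb with h3 | h3 <;> rw [h3]
        · rw [mul_one, one_mul]
      rw [e1]
      rcases hcm b hb with h3 | h3
      · rw [h3, one_mul]
        right
        exact ⟨rfl, h.z_ne⟩
      · rw [h3, h.zz]
        left
        exact ⟨rfl, h.z_ne⟩
    omega

/-- If `T ≤ J` is normal in `C(z)` and `C_T(a)` is abelian for some `a ∈ T`, then `X` centralises `T`. -/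
theorem centralizes_of_abelian [Finite G] {T : Subgroup G} (hT : T ≤ J) (hn : Ce z ≤ normalizer (T : Set G))
    {a : G} (ha : a ∈ T) (hab : ∀ x ∈ T ⊓ centralizer ({a} : Set G), ∀ y ∈ T ⊓ centralizer ({a} : Set G),
      x * y = y * x) : X ≤ centralizer (T : Set G) := by
  set Z : Subgroup G := T ⊓ centralizer (T : Set G) with hZ
  have hZn : Ce z ≤ normalizer (Z : Set G) := by
    refine le_normalizer_inf hn ?_
    rw [le_normalizer_iff]
    intro g hg c hc
    rw [mem_centralizer_iff]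
    intro n hn'
    have h1 : g⁻¹ * n * g ∈ T := by
      have := (mem_normalizer_iff.1 (hn (inv_mem hg)) n).1 hn'
      rwa [inv_inv] at this
    have h2 := mem_centralizer_iff.1 hc _ h1
    calc n * (g * c * g⁻¹) = g * ((g⁻¹ * n * g) * c) * g⁻¹ := by group
      _ = g * (c * (g⁻¹ * n * g)) * g⁻¹ := by rw [h2]
      _ = g * c * g⁻¹ * n := by group
  have hXZ : X ≤ centralizer (Z : Set G) :=
    h.act Z (inf_le_left.trans hT) hZn (fun x hx y hy => (mem_centralizer_iff.1 hx.2 y hy.1).symm)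
  have hc : Z.relIndex T ≤ 4 := by
    by_cases h1 : T ≤ centralizer ({a} : Set G)
    · have : T ≤ Z := by
        refine le_inf le_rfl fun x hx => mem_centralizer_iff.2 fun y hy => ?_
        exact hab y ⟨hy, h1 hy⟩ x ⟨hx, h1 hx⟩
      rw [relIndex_eq_one.2 this]; omega
    · obtain ⟨t, ht, hta⟩ := SetLike.not_le_iff_exists.1 h1
      have h2 := h.relIndex_centralizer_le hT (hT ha)
      have h3 := h.relIndex_centralizer_le hT (hT ht)
      have h5 : (centralizer ({a} : Set G)).relIndex T = 2 := by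
        have h6 : (centralizer ({a} : Set G)).relIndex T ≠ 1 := fun h6 => h1 (relIndex_eq_one.1 h6)
        have h7 : (centralizer ({a} : Set G)).relIndex T ≠ 0 := index_ne_zero_of_finite
        omega
      have h4 : (centralizer ({a} : Set G) ⊓ centralizer ({t} : Set G)) ⊓ T ≤ Z := by
        rintro x ⟨⟨hxa, hxt⟩, hxT⟩
        refine ⟨hxT, mem_centralizer_iff.2 fun y hy => ?_⟩
        by_cases hya : y ∈ centralizer ({a} : Set G)
        · exact hab y ⟨hy, hya⟩ x ⟨hxT, hxa⟩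
        · -- `y ∈ t C_T(a)`
          obtain ⟨s, hs, hxor⟩ := relIndex_eq_two_iff.1 h5
          have hy' : y * t⁻¹ ∈ centralizer ({a} : Set G) := by
            have e1 : y * s ∈ centralizer ({a} : Set G) := by
              rcases hxor y hy with h6 | h6
              · exact h6.1
              · exact absurd h6.1 hya
            have e2 : t * s ∈ centralizer ({a} : Set G) := by
              rcases hxor t ht with h6 | h6
              · exact h6.1
              · exact absurd h6.1 hta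
            have e3 := (centralizer ({a} : Set G)).mul_mem e1 ((centralizer ({a} : Set G)).inv_mem e2)
            have e4 : y * s * (t * s)⁻¹ = y * t⁻¹ := by group
            rwa [e4] at e3
          have h6 : y * t⁻¹ ∈ T := T.mul_mem hy (T.inv_mem ht)
          have h7 := hab (y * t⁻¹) ⟨h6, hy'⟩ x ⟨hxT, hxa⟩
          have h8 : x * t = t * x := mem_centralizer_singleton_iff.1 hxt
          calc y * x = y * t⁻¹ * (t * x) := by group
            _ = y * t⁻¹ * x * t := by rw [← h8, mul_assoc, mul_assoc, mul_assoc]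
            _ = x * (y * t⁻¹) * t := by rw [h7]
            _ = x * y := by group
      calc Z.relIndex T ≤ ((centralizer ({a} : Set G) ⊓ centralizer ({t} : Set G)) ⊓ T).relIndex T :=
            Nat.le_of_dvd (Nat.pos_of_ne_zero index_ne_zero_of_finite) (relIndex_dvd_of_le_left T h4)
        _ = (centralizer ({a} : Set G) ⊓ centralizer ({t} : Set G)).relIndex T := inf_relIndex_right _ _
        _ ≤ (centralizer ({a} : Set G)).relIndex T * (centralizer ({t} : Set G)).relIndex T := relIndex_inf_le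
        _ ≤ 4 := by nlinarith
  apply perfect_centralizes h.X_perfect
  intro x hx b hb y hy
  have h5 : ⁅b, x⁆ ∈ Z := perfect_quot' h.X_perfect (h.X_le.trans hZn) (h.X_le.trans hn) hc hx hb
  exact (mem_centralizer_iff.1 (hXZ hy) _ h5).symm

end SetupW

/-! ### RedCore.lean -/

namespace SetupW

variable {z : G} {J X : Subgroup G} (h : SetupW z J X)
include h

/-- a group normalised by `C(z)`, of odd order, inside `C(z)` is trivial -/
theorem inf_odd [Finite G] {O : Subgroup G} (hn : O.Normal) (hodd : Odd (Nat.card O)) : O ⊓ Ce z = ⊥ := by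
  have hz : z ∉ O := by
    intro hz
    have h1 : orderOf z ∣ Nat.card O := by
      rw [← Subgroup.orderOf_mk z hz]; exact orderOf_dvd_natCard _
    rw [h.hz] at h1
    exact (Nat.not_even_iff_odd.2 hodd) (even_iff_two_dvd.2 h1)
  have h1 := h.small (O ⊓ Ce z) inf_le_right
    (le_normalizer_inf (by rw [normalizer_eq_top_iff.2 hn]; exact le_top) le_normalizer)
    (fun hx => hz hx.1)
  have h2 : Nat.card (O ⊓ Ce z : Subgroup G) ∣ Nat.card O := card_dvd_of_le inf_le_left
  have h3 : Odd (Nat.card (O ⊓ Ce z : Subgroup G)) := Odd.of_dvd_nat hodd h2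
  apply card_eq_one.1
  rcases h3 with ⟨k, hk⟩
  omega

theorem inverts [Finite G] {O : Subgroup G} (hn : O.Normal) (hodd : Odd (Nat.card O)) {o : G} (ho : o ∈ O) :
    z * o * z⁻¹ = o⁻¹ := by
  obtain ⟨c, hc, k, hk, hzc, hzk, rfl⟩ := Cfsg.Agent.Lib.KleinGen.exists_centralizer_mul_inverted O hodd z
    h.zz (fun x hx => hn.conj_mem x hx z) ho
  have h1 : c ∈ O ⊓ Ce z := ⟨hc, mem_Ce.2 hzc.symm⟩
  rw [h.inf_odd hn hodd, mem_bot] at h1
  rw [h1, one_mul]; exact hzk

/-- `G = C(z) O(G)` or `O(G) = 1` -/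
theorem oddCore_eq_bot [Finite G] : Ce z ⊔ Cfsg.oddCore G = ⊤ ∨ Cfsg.oddCore G = ⊥ := by
  classical
  have : Fact (Nat.Prime 2) := ⟨Nat.prime_two⟩
  by_cases hO1 : Cfsg.oddCore G = ⊥
  · exact Or.inr hO1
  left
  set O : Subgroup G := Cfsg.oddCore G with hOdef
  have hOn : O.Normal := Cfsg.Agent.Lib.Cores.pPrimeCore_normal 2
  have hOodd : Odd (Nat.card O) :=
    Nat.coprime_two_right.mp (Cfsg.Agent.Lib.Cores.pPrimeCore_coprime (G := G) 2)
  have hinv : ∀ o ∈ O, z * o * z⁻¹ = o⁻¹ := fun o ho => h.inverts hOn hOodd ho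
  have hOle : ∀ N : Subgroup G, N.Normal → Odd (Nat.card N) → N ≤ O := fun N hN hodd =>
    Cfsg.Agent.Lib.Cores.le_pPrimeCore hN (Nat.coprime_two_right.mpr hodd)
  -- the centralizer `K` of `O`
  set K : Subgroup G := centralizer (O : Set G) with hKdef
  have hKn : K.Normal := by rw [hKdef]; infer_instance
  have hzK : z ∉ K := by
    intro hz
    apply hO1
    rw [eq_bot_iff]
    intro o ho
    have h1 : o * z = z * o := mem_centralizer_iff.1 hz o ho
    have h2 : z * o * z⁻¹ = o := by rw [← h1, mul_inv_cancel_right]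
    have h3 : o = o⁻¹ := h2.symm.trans (hinv o ho)
    have h4 : o * o = 1 := by nth_rewrite 2 [h3]; exact mul_inv_cancel o
    have h5 : orderOf o ∣ 2 := orderOf_dvd_of_pow_eq_one (by rw [pow_two]; exact h4)
    have h6 : orderOf o ∣ Nat.card O := by
      rw [← Subgroup.orderOf_mk o ho]; exact orderOf_dvd_natCard _
    have h7 : Odd (orderOf o) := Odd.of_dvd_nat hOodd h6
    rcases (Nat.dvd_prime Nat.prime_two).1 h5 with h8 | h8
    · exact mem_bot.2 (orderOf_eq_one_iff.1 h8)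
    · rw [h8] at h7; exact absurd h7 (by decide)
  -- a Sylow 2-subgroup containing `J`
  obtain ⟨Q, hQ⟩ := h.J_two.exists_le_sylow
  set P : Subgroup G := (Q : Subgroup G) ⊓ K with hPdef
  have hPtwo : IsPGroup 2 P := Q.isPGroup'.to_le inf_le_left
  have hKtop : normalizer (K : Set G) = ⊤ := normalizer_eq_top_iff.2 hKn
  have hJP : J ≤ normalizer (P : Set G) :=
    le_normalizer_inf (hQ.trans le_normalizer) (by rw [hKtop]; exact le_top)
  have hKC : Nat.card (K ⊓ Ce z : Subgroup G) ≤ 2 :=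
    h.small _ inf_le_right (le_normalizer_inf (by rw [hKtop]; exact le_top) le_normalizer)
      (fun hx => hzK hx.1)
  have hPC : Nat.card (P ⊓ Ce z : Subgroup G) ≤ 2 := by
    refine le_trans ?_ hKC
    exact Nat.le_of_dvd Nat.card_pos (card_dvd_of_le (inf_le_inf_right _ inf_le_right))
  have hPle : P ≤ Ce z := h.le_of_small hPtwo hJP hPC
  have hPK : P ≤ K ⊓ Ce z := le_inf inf_le_right hPle
  have hPcard : Nat.card P ≤ 2 := by
    rw [inf_eq_left.2 hPle] at hPC; exact hPC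
  -- `C(z)` centralises `K ⊓ C(z)`, hence `P`
  have hXP : ∀ x ∈ X, ∀ p ∈ P, x * p = p * x := fun x hx p hp =>
    commute_of_card_le_two hKC (fun y hy => ⟨hKn.conj_mem y hy.1 x,
      (Ce z).mul_mem ((Ce z).mul_mem (h.X_le hx) hy.2) ((Ce z).inv_mem (h.X_le hx))⟩) (hPK hp)
  -- `K z` is central in `G / K`
  have hcen : ∀ g : G, g * z * g⁻¹ * z⁻¹ ∈ K := by
    intro g
    rw [hKdef, mem_centralizer_iff]
    intro o ho
    have e1 : z⁻¹ * o * z⁻¹⁻¹ = o⁻¹ := by rw [h.z_inv]; exact hinv o ho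
    have ho' : g⁻¹ * o⁻¹ * g ∈ O := by
      have := hOn.conj_mem o⁻¹ (inv_mem ho) g⁻¹
      rwa [inv_inv] at this
    have e2 := hinv _ ho'
    have e3 : g * z * g⁻¹ * z⁻¹ * o * (g * z * g⁻¹ * z⁻¹)⁻¹ = o := by
      calc g * z * g⁻¹ * z⁻¹ * o * (g * z * g⁻¹ * z⁻¹)⁻¹
          = g * (z * (g⁻¹ * (z⁻¹ * o * z⁻¹⁻¹) * g) * z⁻¹) * g⁻¹ := by group
        _ = g * (z * (g⁻¹ * o⁻¹ * g) * z⁻¹) * g⁻¹ := by rw [e1]
        _ = g * (g⁻¹ * o⁻¹ * g)⁻¹ * g⁻¹ := by rw [e2]
        _ = o := by group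
    exact (mul_inv_eq_iff_eq_mul.1 e3).symm
  -- Frattini argument
  set N1 : Subgroup G := K ⊔ zpowers z with hN1
  have hmemN1 : ∀ x, x ∈ N1 ↔ x ∈ K ∨ x * z ∈ K := by
    intro x
    constructor
    · intro hx
      obtain ⟨k, hk, y, hy, rfl⟩ := mem_sup_of_normal_left.1 hx
      rcases (mem_zpowers_two h.hz).1 hy with rfl | rfl
      · left; rwa [mul_one]
      · right; rwa [mul_assoc, h.zz, mul_one]
    · rintro (hx | hx)
      · exact mem_sup_left hx
      · have : x = x * z * z := by rw [mul_assoc, h.zz, mul_one]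
        rw [this]
        exact mul_mem (mem_sup_left hx) (mem_sup_right (mem_zpowers z))
  have hN1n : N1.Normal := by
    refine ⟨fun x hx g => ?_⟩
    rw [hmemN1] at hx ⊢
    rcases hx with hx | hx
    · exact Or.inl (hKn.conj_mem x hx g)
    · right
      have e : g * x * g⁻¹ * z = g * (x * z) * g⁻¹ * (g * z * g⁻¹ * z⁻¹) := by
        rw [h.z_inv]
        calc g * x * g⁻¹ * z = g * x * (z * z) * g⁻¹ * z := by rw [h.zz, mul_one]
          _ = _ := by group
      rw [e]
      exact mul_mem (hKn.conj_mem _ hx g) (hcen g)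
  have hF := Cfsg.Agent.Lib.SylowNormalInf.normalizer_inf_sup_eq_top Q N1
  -- the normalizer of `D = Q ⊓ N1` is contained in `C(z)`
  have hzQ : z ∈ (Q : Subgroup G) := hQ h.z_mem_J
  have hmemD : ∀ x ∈ (Q : Subgroup G) ⊓ N1, x ∈ P ∨ x * z ∈ P := by
    rintro x ⟨hxQ, hxN⟩
    rcases (hmemN1 x).1 hxN with hx | hx
    · exact Or.inl ⟨hxQ, hx⟩
    · exact Or.inr ⟨mul_mem hxQ hzQ, hx⟩
  have hnorm : normalizer (((Q : Subgroup G) ⊓ N1 : Subgroup G) : Set G) ≤ Ce z := by
    intro g hg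
    apply h.key
    intro x hx
    rw [mem_Ce]
    have h1 : g * z * g⁻¹ ∈ (Q : Subgroup G) ⊓ N1 :=
      (mem_normalizer_iff.1 hg z).1 ⟨hzQ, mem_sup_right (mem_zpowers z)⟩
    rcases hmemD _ h1 with h2 | h2
    · exact hXP x hx _ h2
    · have e1 := hXP x hx _ h2
      have e2 : x * z = z * x := mem_Ce.1 (h.X_le hx)
      have e3 : g * z * g⁻¹ = (g * z * g⁻¹ * z) * z := by rw [mul_assoc (g * z * g⁻¹), h.zz, mul_one]
      rw [e3, ← mul_assoc, e1, mul_assoc, e2, ← mul_assoc]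
  -- `K ≤ C(z) O`
  have hKle : K ≤ Ce z ⊔ O := by
    have hcard : Nat.card P * (Q : Subgroup G).relIndex K = Nat.card K :=
      Cfsg.Agent.Lib.SylowNormalInf.card_inf_mul_relIndex (Q : Subgroup G) K
    have hnd : ¬ 2 ∣ (Q : Subgroup G).relIndex K :=
      Cfsg.Agent.Lib.SylowNormalInf.not_dvd_relIndex Q K
    have hpos : 0 < Nat.card P := Nat.card_pos
    have hP12 : Nat.card P = 1 ∨ Nat.card P = 2 := by omega
    rcases hP12 with hP1 | hP2
    · rw [hP1, one_mul] at hcard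
      rw [hcard] at hnd
      have : Odd (Nat.card K) := by
        rw [← Nat.not_even_iff_odd, even_iff_two_dvd]; exact hnd
      exact (hOle K hKn this).trans le_sup_right
    · -- an involution `p` of `P`
      have hPne : P ≠ ⊥ := by
        intro hb
        rw [hb, card_bot] at hP2
        omega
      obtain ⟨a0, ha0⟩ := (P.ne_bot_iff_exists_ne_one).1 hPne
      obtain ⟨p, hp, hp1⟩ : ∃ p : G, p ∈ P ∧ p ≠ 1 := ⟨a0.1, a0.2, fun h1 => ha0 (Subtype.ext h1)⟩
      have hpK : p ∈ K := hp.2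
      have hpp : p * p = 1 := by
        by_contra hne
        have := eq_of_card_le_two hPcard (mul_mem hp hp) hp hne hp1
        exact hp1 (mul_eq_left.1 this)
      have h4 : ¬ 4 ∣ Nat.card (centralizer ({(⟨p, hpK⟩ : K)} : Set K)) := by
        intro h4
        have h5 : 4 ∣ Nat.card K := h4.trans (card_subgroup_dvd_card _)
        rw [← hcard, hP2] at h5
        apply hnd
        omega
      obtain ⟨K0, hK0n, hK0odd, hK0i, hK0m⟩ := Cfsg.Agent.Lib.InvolutionKernel.exists_odd_index_two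
        (X := K) (t := ⟨p, hpK⟩) (Subtype.ext hpp) (fun h1 => hp1 (congrArg Subtype.val h1)) h4
      have hK0 : K0.map K.subtype ≤ O := by
        apply hOle
        · refine ⟨?_⟩
          rintro _ ⟨x, hx, rfl⟩ g
          refine ⟨⟨g * x * g⁻¹, hKn.conj_mem x x.2 g⟩, ?_, rfl⟩
          rw [SetLike.mem_coe, hK0m] at hx ⊢
          have : orderOf (⟨g * x * g⁻¹, hKn.conj_mem x x.2 g⟩ : K) = orderOf x := by
            rw [Subgroup.orderOf_mk, ← Subgroup.orderOf_coe x]
            exact (MulAut.conj g).orderOf_eq (x : G)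
          rw [this]; exact hx
        · rw [card_map_of_injective K.subtype_injective]; exact hK0odd
      intro k hk
      have htK0 : (⟨p, hpK⟩ : K) ∉ K0 := by
        rw [hK0m]
        have : orderOf (⟨p, hpK⟩ : K) = 2 :=
          orderOf_eq_prime (by rw [sq]; exact Subtype.ext hpp) (fun h1 => hp1 (congrArg Subtype.val h1))
        rw [this]; decide
      by_cases hk0 : (⟨k, hk⟩ : K) ∈ K0
      · exact mem_sup_right (hK0 ⟨_, hk0, rfl⟩)
      · have h6 : (⟨k, hk⟩ : K) * ⟨p, hpK⟩ ∈ K0 := by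
          rw [mul_mem_iff_of_index_two hK0i]
          exact ⟨fun h => absurd h hk0, fun h => absurd h htK0⟩
        have h7 : k * p ∈ O := hK0 ⟨_, h6, rfl⟩
        have h8 : k = k * p * p := by rw [mul_assoc, hpp, mul_one]
        rw [h8]
        exact mul_mem (mem_sup_right h7) (mem_sup_left (hPle hp))
  rw [eq_top_iff, ← hF]
  refine sup_le (hnorm.trans le_sup_left) (sup_le hKle ?_)
  rw [zpowers_le]
  exact mem_sup_left z_mem_Ce

/-- **The 2-core.** If `z` is not central, `O_2(G)` has order at most 2 and does not contain `z`. -/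
theorem twoCore [Finite G] (hz : Ce z ≠ ⊤) :
    Nat.card (Cfsg.pCore 2 G) ≤ 2 ∧ z ∉ Cfsg.pCore 2 G := by
  have : Fact (Nat.Prime 2) := ⟨Nat.prime_two⟩
  set R : Subgroup G := Cfsg.pCore 2 G with hRdef
  have hRn : R.Normal := Cfsg.Agent.Lib.Cores.pCore_normal 2
  have hRtop : normalizer (R : Set G) = ⊤ := normalizer_eq_top_iff.2 hRn
  have hRp : IsPGroup 2 R := Cfsg.Agent.Lib.Cores.pCore_isPGroup 2
  set N : Subgroup G := R ⊓ Ce z with hN
  have hHN : Ce z ≤ normalizer (N : Set G) := le_normalizer_inf (by rw [hRtop]; exact le_top) le_normalizer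
  have hNp : IsPGroup 2 N := hRp.to_le inf_le_left
  have hNJ : N ≤ J := h.J_max N inf_le_right hHN hNp
  -- whatever normalises `N` and lies in `C(z)`...
  have grow : normalizer (N : Set G) ≤ Ce z → False := by
    intro hle
    have hRN : R ≤ N := by
      by_contra hne
      obtain ⟨r, hrR, hrN, hrn⟩ := exists_mem_normalizer hRp hNp
        (inf_le_left.trans (le_normalizer : R ≤ normalizer (R : Set G))) hne
      exact hrN ⟨hrR, hle hrn⟩
    have e : N = R := le_antisymm inf_le_left hRN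
    apply hz
    rw [eq_top_iff]
    have : normalizer (N : Set G) = ⊤ := by rw [e]; exact hRtop
    rw [← this]; exact hle
  by_cases hzR : z ∈ R
  · exfalso
    have hzN : z ∈ N := ⟨hzR, z_mem_Ce⟩
    by_cases hab : ∀ x ∈ N, ∀ y ∈ N, x * y = y * x
    · -- `N` abelian
      have hXN : X ≤ centralizer (N : Set G) := h.act N hNJ hHN hab
      set C : Subgroup G := centralizer (N : Set G) with hC
      have hCH : C ≤ Ce z := by
        intro c hc
        exact mem_Ce.2 (mem_centralizer_iff.1 hc z hzN).symm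
      have hNC : normalizer (N : Set G) ≤ normalizer (C : Set G) := by
        rw [le_normalizer_iff]
        intro g hg c hc
        rw [hC, mem_centralizer_iff]
        intro n hn
        have h1 : g⁻¹ * n * g ∈ N := by
          have := (mem_normalizer_iff.1 (inv_mem hg) n).1 hn
          rwa [inv_inv] at this
        have h2 := mem_centralizer_iff.1 hc _ h1
        calc n * (g * c * g⁻¹) = g * ((g⁻¹ * n * g) * c) * g⁻¹ := by group
          _ = g * (c * (g⁻¹ * n * g)) * g⁻¹ := by rw [h2]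
          _ = g * c * g⁻¹ * n := by group
      have hHC : Ce z ≤ normalizer (C : Set G) := hHN.trans hNC
      have hD := h.pCore_eq hCH hHC
      have hDna : ¬ ∀ x ∈ C ⊓ J, ∀ y ∈ C ⊓ J, x * y = y * x := by
        intro hab'
        exact h.inf_not_abelian fun x hx y hy => hab' x ⟨hXN hx.1, hx.2⟩ y ⟨hXN hy.1, hy.2⟩
      apply grow
      intro g hg
      refine h.mem_Ce_of_normalizer inf_le_right hDna ?_
      rw [← hD]
      exact normalizer_le_normalizer_map _ (Cfsg.Agent.Lib.Cores.pCore_characteristic 2) (hNC hg)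
    · apply grow
      intro g hg
      exact h.mem_Ce_of_normalizer hNJ hab hg
  · have hc : Nat.card (R ⊓ Ce z : Subgroup G) ≤ 2 := h.small N inf_le_right hHN (fun hx => hzR hx.1)
    have hle := h.le_of_small hRp (by rw [hRtop]; exact le_top) hc
    rw [inf_eq_left.2 hle] at hc
    exact ⟨hc, hzR⟩

omit h in
/-- `M ≤ O(G) (Q ∩ M)` when `Q ∩ M` has order at most 2, `Q` a Sylow 2-subgroup -/
theorem le_oddCore_sup [Finite G] (Q : Sylow 2 G) (M : Subgroup G) (hM : M.Normal)
    (hc : Nat.card ((Q : Subgroup G) ⊓ M : Subgroup G) ≤ 2) :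
    M ≤ Cfsg.oddCore G ⊔ ((Q : Subgroup G) ⊓ M) := by
  classical
  have : Fact (Nat.Prime 2) := ⟨Nat.prime_two⟩
  set P : Subgroup G := (Q : Subgroup G) ⊓ M with hPdef
  have hOle : ∀ N : Subgroup G, N.Normal → Odd (Nat.card N) → N ≤ Cfsg.oddCore G := fun N hN hodd =>
    Cfsg.Agent.Lib.Cores.le_pPrimeCore hN (Nat.coprime_two_right.mpr hodd)
  have hcard : Nat.card P * (Q : Subgroup G).relIndex M = Nat.card M :=
    Cfsg.Agent.Lib.SylowNormalInf.card_inf_mul_relIndex (Q : Subgroup G) M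
  have hnd : ¬ 2 ∣ (Q : Subgroup G).relIndex M :=
    Cfsg.Agent.Lib.SylowNormalInf.not_dvd_relIndex Q M
  have hpos : 0 < Nat.card P := Nat.card_pos
  have hP12 : Nat.card P = 1 ∨ Nat.card P = 2 := by omega
  rcases hP12 with hP1 | hP2
  · rw [hP1, one_mul] at hcard
    rw [hcard] at hnd
    have : Odd (Nat.card M) := by
      rw [← Nat.not_even_iff_odd, even_iff_two_dvd]; exact hnd
    exact (hOle M hM this).trans le_sup_left
  · -- an involution `p` of `P`
    have hPne : P ≠ ⊥ := by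
      intro hb
      rw [hb, card_bot] at hP2
      omega
    obtain ⟨a0, ha0⟩ := (P.ne_bot_iff_exists_ne_one).1 hPne
    obtain ⟨p, hp, hp1⟩ : ∃ p : G, p ∈ P ∧ p ≠ 1 := ⟨a0.1, a0.2, fun h1 => ha0 (Subtype.ext h1)⟩
    have hpK : p ∈ M := hp.2
    have hpp : p * p = 1 := by
      by_contra hne
      have := eq_of_card_le_two hc (mul_mem hp hp) hp hne hp1
      exact hp1 (mul_eq_left.1 this)
    have h4 : ¬ 4 ∣ Nat.card (centralizer ({(⟨p, hpK⟩ : M)} : Set M)) := by
      intro h4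
      have h5 : 4 ∣ Nat.card M := h4.trans (card_subgroup_dvd_card _)
      rw [← hcard, hP2] at h5
      apply hnd
      omega
    obtain ⟨K0, hK0n, hK0odd, hK0i, hK0m⟩ := Cfsg.Agent.Lib.InvolutionKernel.exists_odd_index_two
      (X := M) (t := ⟨p, hpK⟩) (Subtype.ext hpp) (fun h1 => hp1 (congrArg Subtype.val h1)) h4
    have hK0 : K0.map M.subtype ≤ Cfsg.oddCore G := by
      apply hOle
      · refine ⟨?_⟩
        rintro _ ⟨x, hx, rfl⟩ g
        refine ⟨⟨g * x * g⁻¹, hM.conj_mem x x.2 g⟩, ?_, rfl⟩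
        rw [SetLike.mem_coe, hK0m] at hx ⊢
        have : orderOf (⟨g * x * g⁻¹, hM.conj_mem x x.2 g⟩ : M) = orderOf x := by
          rw [Subgroup.orderOf_mk, ← Subgroup.orderOf_coe x]
          exact (MulAut.conj g).orderOf_eq (x : G)
        rw [this]; exact hx
      · rw [card_map_of_injective M.subtype_injective]; exact hK0odd
    intro k hk
    have htK0 : (⟨p, hpK⟩ : M) ∉ K0 := by
      rw [hK0m]
      have : orderOf (⟨p, hpK⟩ : M) = 2 :=
        orderOf_eq_prime (by rw [sq]; exact Subtype.ext hpp) (fun h1 => hp1 (congrArg Subtype.val h1))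
      rw [this]; decide
    by_cases hk0 : (⟨k, hk⟩ : M) ∈ K0
    · exact mem_sup_left (hK0 ⟨_, hk0, rfl⟩)
    · have h6 : (⟨k, hk⟩ : M) * ⟨p, hpK⟩ ∈ K0 := by
        rw [mul_mem_iff_of_index_two hK0i]
        exact ⟨fun h => absurd h hk0, fun h => absurd h htK0⟩
      have h7 : k * p ∈ Cfsg.oddCore G := hK0 ⟨_, h6, rfl⟩
      have h8 : k = k * p * p := by rw [mul_assoc, hpp, mul_one]
      rw [h8]
      exact mul_mem (mem_sup_left h7) (mem_sup_right hp)

/-- every nontrivial normal subgroup contains `z` if `O(G) = 1 = O_2(G)` -/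
theorem z_mem_of_normal [Finite G] (hO : Cfsg.oddCore G = ⊥) (h2 : Cfsg.pCore 2 G = ⊥) {M : Subgroup G}
    (hM : M.Normal) (hne : M ≠ ⊥) : z ∈ M := by
  by_contra hzM
  have : Fact (Nat.Prime 2) := ⟨Nat.prime_two⟩
  obtain ⟨Q, hQ⟩ := h.J_two.exists_le_sylow
  have hMtop : normalizer (M : Set G) = ⊤ := normalizer_eq_top_iff.2 hM
  have hMC : Nat.card (M ⊓ Ce z : Subgroup G) ≤ 2 :=
    h.small _ inf_le_right (le_normalizer_inf (by rw [hMtop]; exact le_top) le_normalizer)
      (fun hx => hzM hx.1)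
  have hPC : Nat.card ((Q : Subgroup G) ⊓ M ⊓ Ce z : Subgroup G) ≤ 2 := by
    refine le_trans ?_ hMC
    exact Nat.le_of_dvd Nat.card_pos (card_dvd_of_le (inf_le_inf_right _ inf_le_right))
  have hPle := h.le_of_small (P := (Q : Subgroup G) ⊓ M) (Q.isPGroup'.to_le inf_le_left)
    (le_normalizer_inf (hQ.trans le_normalizer) (by rw [hMtop]; exact le_top)) hPC
  rw [inf_eq_left.2 hPle] at hPC
  have h3 := le_oddCore_sup Q M hM hPC
  rw [hO, bot_sup_eq] at h3
  have h4 : IsPGroup 2 M := Q.isPGroup'.to_le (h3.trans inf_le_left)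
  have h5 := Cfsg.Agent.Lib.Cores.le_pCore hM h4
  rw [h2, le_bot_iff] at h5
  exact hne h5

end SetupW

/-! ### RedFuse.lean -/

namespace SetupW

variable {z : G} {J X : Subgroup G} (h : SetupW z J X)
include h

theorem exists_fused [Finite G] (hO : Cfsg.oddCore G = ⊥) (hz : Ce z ≠ ⊤) (Q : Sylow 2 G)
    (hQ : z ∈ (Q : Subgroup G)) : ∃ g : G, g * z * g⁻¹ ∈ (Q : Subgroup G) ∧ g * z * g⁻¹ ≠ z := by
  by_contra hcon
  push Not at hcon
  obtain ⟨N, hN, hodd, hcom⟩ := Cfsg.Agent.S0215.result Q z h.hz hQ hcon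
  have h1 : N ≤ Cfsg.oddCore G := Cfsg.Agent.Lib.Cores.le_pPrimeCore hN (Nat.coprime_two_right.mpr hodd)
  rw [hO, le_bot_iff] at h1
  apply hz
  rw [eq_top_iff]
  intro g _
  have h2 := hcom g
  rw [h1, mem_bot] at h2
  rw [mem_Ce]
  have h3 : z * g * z⁻¹ = g := by
    have : z * g * z⁻¹ * g⁻¹ * g = 1 * g := by rw [h2]
    simpa using this
  exact (mul_inv_eq_iff_eq_mul.1 h3).symm

/-- 2-subgroups of a normal subgroup of `C(z)` not containing `X` lie in `J`. -/
theorem two_le_of_dich [Finite G] {T : Subgroup G} (hT : T ≤ Ce z) (hn : Ce z ≤ normalizer (T : Set G))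
    (hX : ¬ X ≤ T) {P : Subgroup G} (hP : P ≤ T) (hP2 : IsPGroup 2 P) : P ≤ J := by
  have : Fact (Nat.Prime 2) := ⟨Nat.prime_two⟩
  rcases h.dich T hT hn with h1 | h1 | ⟨h1, h2⟩
  · exact hP.trans h1
  · exact absurd h1 hX
  · have hPJ : P ≤ normalizer (J : Set G) := (hP.trans hT).trans h.J_norm
    have h3 : IsPGroup 2 (P ⊔ J : Subgroup G) := IsPGroup.to_sup_of_normal_right' hP2 h.J_two hPJ
    have h4 : J.relIndex (P ⊔ J) ∣ J.relIndex T := by
      have h5 := relIndex_mul_relIndex J (P ⊔ J) T le_sup_right (sup_le hP h1)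
      exact ⟨_, h5.symm⟩
    have h5 : Odd (J.relIndex (P ⊔ J)) := Odd.of_dvd_nat h2 h4
    have h6 : J.relIndex (P ⊔ J) ∣ Nat.card (P ⊔ J : Subgroup G) := relIndex_dvd_card J (P ⊔ J)
    obtain ⟨n, hn'⟩ := IsPGroup.iff_card.1 h3
    rw [hn'] at h6
    obtain ⟨m, -, hm⟩ := (Nat.dvd_prime_pow Nat.prime_two).1 h6
    have h7 : m = 0 := by
      by_contra hm0
      rw [hm] at h5
      exact (Nat.not_even_iff_odd.2 h5) ((Nat.even_pow.2 ⟨even_two, hm0⟩))
    rw [h7, pow_zero, relIndex_eq_one] at hm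
    exact le_sup_left.trans hm

/-- **`X` lies in every normal subgroup containing `z`.** -/
theorem X_le_of_normal [Finite G] (hO : Cfsg.oddCore G = ⊥) (hz : Ce z ≠ ⊤) {M : Subgroup G} (hM : M.Normal)
    (hzM : z ∈ M) : X ≤ M := by
  have : Fact (Nat.Prime 2) := ⟨Nat.prime_two⟩
  have hMtop : normalizer (M : Set G) = ⊤ := normalizer_eq_top_iff.2 hM
  set T0 : Subgroup G := M ⊓ Ce z with hT0def
  have hT0n : Ce z ≤ normalizer (T0 : Set G) := le_normalizer_inf (by rw [hMtop]; exact le_top) le_normalizer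
  by_cases hXT0 : X ≤ T0
  · exact hXT0.trans inf_le_left
  exfalso
  have htwo : ∀ P : Subgroup G, P ≤ T0 → IsPGroup 2 P → P ≤ J := fun P hP hP2 =>
    h.two_le_of_dich inf_le_right hT0n hXT0 hP hP2
  set T : Subgroup G := T0 ⊓ J with hTdef
  have hTn : Ce z ≤ normalizer (T : Set G) := le_normalizer_inf hT0n h.J_norm
  have hTJ : T ≤ J := inf_le_right
  have hzT : z ∈ T := mem_inf.2 ⟨mem_inf.2 ⟨hzM, z_mem_Ce⟩, h.z_mem_J⟩
  obtain ⟨Q, hQ⟩ := h.J_two.exists_le_sylow
  set P : Subgroup G := (Q : Subgroup G) ⊓ M with hPdef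
  have hP2 : IsPGroup 2 P := Q.isPGroup'.to_le inf_le_left
  have hT2 : IsPGroup 2 T := h.J_two.to_le hTJ
  have hTP : T ≤ P := le_inf (hTJ.trans hQ) (inf_le_left.trans inf_le_left)
  have hPT0 : P ⊓ Ce z ≤ T := by
    have h1 : P ⊓ Ce z ≤ T0 := le_inf (inf_le_left.trans inf_le_right) inf_le_right
    exact le_inf h1 (htwo _ h1 (hP2.to_le inf_le_left))
  have hTnP : T ≤ normalizer (P : Set G) := hTP.trans le_normalizer
  obtain ⟨g, hgQ, hgz⟩ := h.exists_fused hO hz Q (hQ h.z_mem_J)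
  have hgM : g * z * g⁻¹ ∈ M := hM.conj_mem z hzM g
  have hgP : g * z * g⁻¹ ∈ P := ⟨hgQ, hgM⟩
  by_cases hab : ∀ x ∈ T, ∀ y ∈ T, x * y = y * x
  · by_cases hPT : P ≤ T
    · exact hgz (mem_Ce'.1 (h.key_abelian hTJ hTn hab (hPT hgP)))
    · obtain ⟨r, hrP, hrT, hrn⟩ := exists_mem_normalizer hP2 hT2 hTnP hPT
      have h1 : r * z * r⁻¹ ∈ T := (mem_normalizer_iff.1 hrn z).1 hzT
      exact hrT (hPT0 (mem_inf.2 ⟨hrP, h.key_abelian hTJ hTn hab h1⟩))
  · have hPT : P ≤ T := by
      by_contra hPT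
      obtain ⟨r, hrP, hrT, hrn⟩ := exists_mem_normalizer hP2 hT2 hTnP hPT
      exact hrT (hPT0 (mem_inf.2 ⟨hrP, h.mem_Ce_of_normalizer hTJ hab hrn⟩))
    have hgT : g * z * g⁻¹ ∈ T := hPT hgP
    by_cases hD : ∀ x ∈ T ⊓ centralizer ({g * z * g⁻¹} : Set G),
        ∀ y ∈ T ⊓ centralizer ({g * z * g⁻¹} : Set G), x * y = y * x
    · have h1 := h.centralizes_of_abelian hTJ hTn hgT hD
      have h2 : X ≤ Ce (g * z * g⁻¹) := by
        intro x hx
        exact mem_Ce.2 (mem_centralizer_iff.1 (h1 hx) _ hgT).symm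
      exact hgz (mem_Ce'.1 (h.key h2))
    · push Not at hD
      obtain ⟨x, hx, y, hy, hxy⟩ := hD
      have hc : ∀ d ∈ T ⊓ centralizer ({g * z * g⁻¹} : Set G), g⁻¹ * d * g ∈ J := by
        have hsub : (T ⊓ centralizer ({g * z * g⁻¹} : Set G)).map (MulAut.conj g⁻¹).toMonoidHom ≤ J := by
          apply htwo
          · rintro _ ⟨d, hd, rfl⟩
            show g⁻¹ * d * g⁻¹⁻¹ ∈ T0
            rw [inv_inv]
            refine mem_inf.2 ⟨?_, ?_⟩
            · have := hM.conj_mem d (mem_inf.1 (mem_inf.1 (mem_inf.1 hd).1).1).1 g⁻¹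
              rwa [inv_inv] at this
            · rw [mem_Ce]
              have h3 : d * (g * z * g⁻¹) = (g * z * g⁻¹) * d := mem_centralizer_singleton_iff.1 hd.2
              calc g⁻¹ * d * g * z = g⁻¹ * (d * (g * z * g⁻¹)) * g := by group
                _ = g⁻¹ * ((g * z * g⁻¹) * d) * g := by rw [h3]
                _ = z * (g⁻¹ * d * g) := by group
          · exact (hT2.to_le inf_le_left).map _
        intro d hd
        have := hsub ⟨d, hd, rfl⟩
        change g⁻¹ * d * g⁻¹⁻¹ ∈ J at this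
        rwa [inv_inv] at this
      have h4 : ⁅x, y⁆ ∈ zpowers z := by
        rw [← h.J_comm]; exact commutator_mem_commutator (hTJ hx.1) (hTJ hy.1)
      have h5 : ⁅x, y⁆ = z := by
        rcases (mem_zpowers_two h.hz).1 h4 with h6 | h6
        · exact absurd (commutatorElement_eq_one_iff_mul_comm.1 h6) hxy
        · exact h6
      have h7 : ⁅g⁻¹ * x * g, g⁻¹ * y * g⁆ ∈ zpowers z := by
        rw [← h.J_comm]; exact commutator_mem_commutator (hc x hx) (hc y hy)
      have h8 : ⁅g⁻¹ * x * g, g⁻¹ * y * g⁆ = g⁻¹ * z * g := by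
        rw [← h5, commutatorElement_def, commutatorElement_def]; group
      rw [h8] at h7
      rcases (mem_zpowers_two h.hz).1 h7 with h9 | h9
      · apply h.z_ne
        have : z = g * (g⁻¹ * z * g) * g⁻¹ := by group
        rw [this, h9]; group
      · apply hgz
        calc g * z * g⁻¹ = g * (g⁻¹ * z * g) * g⁻¹ := by rw [h9]
          _ = z := by group

/-- `Z(J) ∩ C(z)`: conjugates of `z` centralising `J` are trivial conjugates -/
theorem mem_Ce_of_centralizer_J [Finite G] {g : G} (h1 : g * z * g⁻¹ ∈ Ce z)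
    (h2 : g * z * g⁻¹ ∈ centralizer (J : Set G)) : g ∈ Ce z := by
  have h3 : g * z * g⁻¹ ∈ J ⊓ centralizer (J : Set G) := ⟨h.J_cent ⟨h1, h2⟩, h2⟩
  refine h.key_abelian (W := J ⊓ centralizer (J : Set G)) inf_le_left ?_ ?_ h3
  · refine le_normalizer_inf h.J_norm ?_
    rw [le_normalizer_iff]
    intro g hg c hc
    rw [mem_centralizer_iff]
    intro n hn'
    have h1 : g⁻¹ * n * g ∈ J := by
      have := (mem_normalizer_iff.1 (h.J_norm (inv_mem hg)) n).1 hn'
      rwa [inv_inv] at this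
    have h2 := mem_centralizer_iff.1 hc _ h1
    calc n * (g * c * g⁻¹) = g * ((g⁻¹ * n * g) * c) * g⁻¹ := by group
      _ = g * (c * (g⁻¹ * n * g)) * g⁻¹ := by rw [h2]
      _ = g * c * g⁻¹ * n := by group
  · intro x hx y hy
    exact (mem_centralizer_iff.1 hx.2 y hy.1).symm

/-- `C(z)` contains a Sylow 2-subgroup of `G`, containing `J` -/
theorem sylow_le [Finite G] : ∃ Q : Sylow 2 G, (Q : Subgroup G) ≤ Ce z ∧ J ≤ (Q : Subgroup G) := by
  have : Fact (Nat.Prime 2) := ⟨Nat.prime_two⟩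
  -- a Sylow subgroup of `C(z)`
  obtain ⟨S₀⟩ := (inferInstance : Nonempty (Sylow 2 (Ce z)))
  set S : Subgroup G := (S₀ : Subgroup (Ce z)).map (Ce z).subtype with hS
  have hSle : S ≤ Ce z := map_subtype_le _
  have hS2 : IsPGroup 2 S := S₀.isPGroup'.map _
  have hJS : J ≤ S := by
    have h1 : (J.subgroupOf (Ce z)).Normal := by
      rw [normal_subgroupOf_iff_le_normalizer h.J_le]; exact h.J_norm
    have h1' : IsPGroup 2 (J.subgroupOf (Ce z)) := h.J_two.comap_of_injective _ (subtype_injective _)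
    have h2 : J.subgroupOf (Ce z) ≤ (S₀ : Subgroup (Ce z)) := @IsPGroup.le_sylow_of_normal _ _ _ _ h1 h1' S₀
    have h3 := map_mono (f := (Ce z).subtype) h2
    rwa [subgroupOf_map_subtype, inf_eq_left.2 h.J_le] at h3
  -- maximality
  have hmax : ∀ P : Subgroup G, IsPGroup 2 P → P ≤ Ce z → S ≤ P → P ≤ S := by
    intro P hP hPle hSP
    have h1 : (S₀ : Subgroup (Ce z)) ≤ P.subgroupOf (Ce z) := by
      intro x hx
      rw [mem_subgroupOf]
      exact hSP ⟨x, hx, rfl⟩
    have h2 : P.subgroupOf (Ce z) = S₀ := S₀.is_maximal' (hP.comap_of_injective _ (subtype_injective _)) h1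
    rw [hS, ← h2, subgroupOf_map_subtype, inf_eq_left.2 hPle]
  obtain ⟨Q, hQ⟩ := hS2.exists_le_sylow
  refine ⟨Q, ?_, hJS.trans hQ⟩
  by_contra hne
  have hne' : ¬ (Q : Subgroup G) ≤ S := fun hle => hne (hle.trans hSle)
  obtain ⟨r, hrQ, hrS, hrn⟩ := exists_mem_normalizer Q.isPGroup' hS2 (hQ.trans le_normalizer) hne'
  -- `r ∈ C(z)`
  have hzS : z ∈ S := hJS h.z_mem_J
  have hrz : r * z * r⁻¹ ∈ S := (mem_normalizer_iff.1 hrn z).1 hzS
  have hrzc : r * z * r⁻¹ ∈ centralizer (J : Set G) := by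
    rw [mem_centralizer_iff]
    intro j hj
    have h1 : r⁻¹ * j * r ∈ S := by
      have := (mem_normalizer_iff.1 (inv_mem hrn) j).1 (hJS hj)
      rwa [inv_inv] at this
    have h2 : (r⁻¹ * j * r) * z = z * (r⁻¹ * j * r) := mem_Ce.1 (hSle h1)
    calc j * (r * z * r⁻¹) = r * ((r⁻¹ * j * r) * z) * r⁻¹ := by group
      _ = r * (z * (r⁻¹ * j * r)) * r⁻¹ := by rw [h2]
      _ = r * z * r⁻¹ * j := by group
  have hr : r ∈ Ce z := h.mem_Ce_of_centralizer_J (hSle hrz) hrzc
  -- `S ⟨r⟩` is a 2-subgroup of `C(z)`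
  have h5 : S ⊔ zpowers r ≤ (Q : Subgroup G) := sup_le hQ (zpowers_le.2 hrQ)
  have h6 := hmax (S ⊔ zpowers r) (Q.isPGroup'.to_le h5) (sup_le hSle (zpowers_le.2 hr)) le_sup_left
  exact hrS (h6 (mem_sup_right (mem_zpowers r)))

/-- **`G = C(z) M`** for every normal subgroup `M` containing `X`. -/
theorem sup_eq_top [Finite G] {M : Subgroup G} (hM : M.Normal) (hXM : X ≤ M) : Ce z ⊔ M = ⊤ := by
  have : Fact (Nat.Prime 2) := ⟨Nat.prime_two⟩
  obtain ⟨Q, hQ, hJQ⟩ := h.sylow_le
  have hzM : z ∈ M := hXM h.z_mem_X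
  have hMtop : normalizer (M : Set G) = ⊤ := normalizer_eq_top_iff.2 hM
  set T : Subgroup G := M ⊓ Ce z with hTdef
  have hTn : Ce z ≤ normalizer (T : Set G) := le_normalizer_inf (by rw [hMtop]; exact le_top) le_normalizer
  have hTJn : Ce z ≤ normalizer ((T ⊓ J : Subgroup G) : Set G) := le_normalizer_inf hTn h.J_norm
  set C : Subgroup G := T ⊓ centralizer ((T ⊓ J : Subgroup G) : Set G) with hC
  have hCn : Ce z ≤ normalizer (C : Set G) := by
    refine le_normalizer_inf hTn ?_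
    rw [le_normalizer_iff]
    intro g hg c hc
    rw [mem_centralizer_iff]
    intro n hn'
    have h1 : g⁻¹ * n * g ∈ T ⊓ J := by
      have := (mem_normalizer_iff.1 (hTJn (inv_mem hg)) n).1 hn'
      rwa [inv_inv] at this
    have h2 := mem_centralizer_iff.1 hc _ h1
    calc n * (g * c * g⁻¹) = g * ((g⁻¹ * n * g) * c) * g⁻¹ := by group
      _ = g * (c * (g⁻¹ * n * g)) * g⁻¹ := by rw [h2]
      _ = g * c * g⁻¹ * n := by group
  have hCJ : C ≤ J := by
    rcases h.dich C (inf_le_left.trans inf_le_right) hCn with h1 | h1 | ⟨h1, -⟩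
    · exact h1
    · exfalso
      apply h.inf_not_abelian
      intro x hx y hy
      have h2 : y ∈ T ⊓ J := ⟨⟨hXM hy.1, h.X_le hy.1⟩, hy.2⟩
      exact (mem_centralizer_iff.1 (h1 hx.1).2 y h2).symm
    · exfalso
      apply h.inf_not_abelian
      intro x hx y hy
      have h2 : y ∈ T ⊓ J := ⟨⟨hXM hy.1, h.X_le hy.1⟩, hy.2⟩
      exact (mem_centralizer_iff.1 (h1 hx.2).2 y h2).symm
  have hCab : ∀ x ∈ C, ∀ y ∈ C, x * y = y * x := fun x hx y hy =>
    (mem_centralizer_iff.1 hx.2 y ⟨hy.1, hCJ hy⟩).symm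
  have hF := Cfsg.Agent.Lib.SylowNormalInf.normalizer_inf_sup_eq_top Q M
  rw [eq_top_iff, ← hF]
  refine sup_le_sup_right ?_ _
  intro g hg
  -- `g z g⁻¹ ∈ C`
  have hTJ : T ⊓ J ≤ (Q : Subgroup G) ⊓ M := le_inf (inf_le_right.trans hJQ) (inf_le_left.trans inf_le_left)
  have hgz : g * z * g⁻¹ ∈ (Q : Subgroup G) ⊓ M := (mem_normalizer_iff.1 hg z).1 ⟨hJQ h.z_mem_J, hzM⟩
  refine h.key_abelian hCJ hCn hCab (mem_inf.2 ⟨mem_inf.2 ⟨hgz.2, hQ hgz.1⟩, ?_⟩)
  rw [mem_centralizer_iff]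
  intro j hj
  have h1 : g⁻¹ * j * g ∈ (Q : Subgroup G) ⊓ M := by
    have := (mem_normalizer_iff.1 (inv_mem hg) j).1 (hTJ hj)
    rwa [inv_inv] at this
  have h2 : (g⁻¹ * j * g) * z = z * (g⁻¹ * j * g) := mem_Ce.1 (hQ h1.1)
  calc j * (g * z * g⁻¹) = g * ((g⁻¹ * j * g) * z) * g⁻¹ := by group
    _ = g * (z * (g⁻¹ * j * g)) * g⁻¹ := by rw [h2]
    _ = g * z * g⁻¹ * j := by group

end SetupW

/-! ### RedSimple.lean -/

namespace SetupW

variable {z : G} {J X : Subgroup G} (h : SetupW z J X)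
include h

theorem exists_comm : ∃ x ∈ X ⊓ J, ∃ y ∈ X ⊓ J, ⁅x, y⁆ = z := by
  have h1 := h.inf_not_abelian
  push Not at h1
  obtain ⟨x, hx, y, hy, hxy⟩ := h1
  refine ⟨x, hx, y, hy, ?_⟩
  have h4 : ⁅x, y⁆ ∈ zpowers z := by
    rw [← h.J_comm]; exact commutator_mem_commutator hx.2 hy.2
  rcases (mem_zpowers_two h.hz).1 h4 with h6 | h6
  · exact absurd (commutatorElement_eq_one_iff_mul_comm.1 h6) hxy
  · exact h6

/-- `z` lies in one factor of a direct product containing `X` -/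
theorem mem_factor [Finite G] {M A B : Subgroup G} (hc : ∀ a ∈ A, ∀ b ∈ B, a * b = b * a) (hd : A ⊓ B = ⊥)
    (hs : A ⊔ B = M) (hXM : X ≤ M) : z ∈ A ∨ z ∈ B := by
  obtain ⟨p, hp⟩ := exists_proj hc hd hs
  have hzM : z ∈ M := hXM h.z_mem_X
  have hconj : ∀ (x y : M), (x : G) * p y * (x : G)⁻¹ = p (x * y * x⁻¹) := by
    intro x y
    rw [map_mul, map_mul, map_inv]
    have h1 := hc (p y) (hp y).1 _ (hp x).2
    have h2 : (x : G) = p x * ((p x)⁻¹ * x) := by group
    calc (x : G) * p y * (x : G)⁻¹ = p x * (((p x)⁻¹ * x) * p y) * (x : G)⁻¹ := by group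
      _ = p x * (p y * ((p x)⁻¹ * x)) * (x : G)⁻¹ := by rw [h1]
      _ = p x * p y * (p x)⁻¹ := by group
  -- the projection of `X`
  set X' : Subgroup G := (X.subgroupOf M).map p with hX'
  have hX'z : X' ≤ Ce z := by
    rintro _ ⟨x, hx, rfl⟩
    rw [mem_Ce]
    have h1 := hconj ⟨z, hzM⟩ x
    have h2 : (⟨z, hzM⟩ : M) * x * (⟨z, hzM⟩ : M)⁻¹ = x := by
      apply Subtype.ext
      have h3 : (x : G) * z = z * x := mem_Ce.1 (h.X_le hx)
      show z * (x : G) * z⁻¹ = x
      rw [← h3, mul_inv_cancel_right]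
    rw [h2] at h1
    exact (mul_inv_eq_iff_eq_mul.1 h1).symm
  have hX'X : X' ≤ X := by
    apply h.X_max _ hX'z
    rw [hX', ← map_commutator, commutator_subgroupOf h.X_perfect hXM]
  set P' : Subgroup G := ((X ⊓ J).subgroupOf M).map p with hP'
  have hP'X : P' ≤ X := (map_mono (comap_mono inf_le_left)).trans hX'X
  have hP'J : P' ≤ J := by
    have h1 : (P'.subgroupOf X).Normal := by
      rw [normal_subgroupOf_iff_le_normalizer hP'X, le_normalizer_iff]
      rintro x hx _ ⟨y, hy, rfl⟩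
      have h2 := hconj ⟨x, hXM hx⟩ y
      change x * p y * x⁻¹ = _ at h2
      rw [h2]
      refine ⟨_, ?_, rfl⟩
      rw [SetLike.mem_coe, mem_subgroupOf] at hy ⊢
      show x * (y : G) * x⁻¹ ∈ X ⊓ J
      refine mem_inf.2 ⟨X.mul_mem (X.mul_mem hx hy.1) (X.inv_mem hx), ?_⟩
      exact (mem_normalizer_iff.1 (h.J_norm (h.X_le hx)) _).1 hy.2
    have h3 : IsPGroup 2 P' :=
      ((h.J_two.to_le inf_le_right).comap_of_injective _ (subtype_injective _)).map p
    have h4 : P'.subgroupOf X ≤ Cfsg.pCore 2 X :=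
      Cfsg.Agent.Lib.Cores.le_pCore h1 (h3.comap_of_injective _ (subtype_injective _))
    have h5 := map_mono (f := X.subtype) h4
    rw [subgroupOf_map_subtype, inf_eq_left.2 hP'X, h.pCore_eq h.X_le h.X_norm] at h5
    exact h5.trans inf_le_right
  obtain ⟨x, hx, y, hy, hxy⟩ := h.exists_comm
  have h1 : p ⟨z, hzM⟩ ∈ ⁅J, J⁆ := by
    have h2 : (⟨z, hzM⟩ : M) = ⁅(⟨x, hXM hx.1⟩ : M), ⟨y, hXM hy.1⟩⁆ := Subtype.ext hxy.symm
    rw [h2, map_commutatorElement]
    exact commutator_mem_commutator (hP'J ⟨⟨x, hXM hx.1⟩, hx, rfl⟩) (hP'J ⟨⟨y, hXM hy.1⟩, hy, rfl⟩)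
  rw [h.J_comm] at h1
  rcases (mem_zpowers_two h.hz).1 h1 with h2 | h2
  · right
    have h3 := (hp ⟨z, hzM⟩).2
    rw [h2, inv_one, one_mul] at h3
    exact h3
  · left
    have h3 := (hp ⟨z, hzM⟩).1
    rwa [h2] at h3

/-- **The minimal normal subgroup is simple.** -/
theorem exists_simple [Finite G] (hO : Cfsg.oddCore G = ⊥) (h2 : Cfsg.pCore 2 G = ⊥) (hz : Ce z ≠ ⊤) :
    ∃ M : Subgroup G, M.Normal ∧ IsSimpleGroup M ∧ z ∈ M ∧ X ≤ M ∧ centralizer (M : Set G) = ⊥ ∧
      Ce z ⊔ M = ⊤ := by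
  set M : Subgroup G := normalClosure {z} with hMdef
  have hM : M.Normal := normalClosure_normal
  have hzM : z ∈ M := subset_normalClosure rfl
  have hXM : X ≤ M := h.X_le_of_normal hO hz hM hzM
  have htop : Ce z ⊔ M = ⊤ := h.sup_eq_top hM hXM
  have hnM : ¬ M ≤ Ce z := by
    intro hle
    rw [sup_eq_left.2 hle] at htop
    exact hz htop
  have hmin : ∀ N : Subgroup G, N.Normal → N ≤ M → N = ⊥ ∨ N = M := by
    intro N hN hNM
    by_cases hne : N = ⊥
    · exact Or.inl hne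
    · right
      have hzN := h.z_mem_of_normal hO h2 hN hne
      exact le_antisymm hNM (normalClosure_le_normal (Set.singleton_subset_iff.2 hzN))
  have hcent : centralizer (M : Set G) = ⊥ := by
    by_contra hne
    have h1 : (centralizer (M : Set G)).Normal := inferInstance
    have h3 := h.z_mem_of_normal hO h2 h1 hne
    exact hnM fun m hm => mem_Ce.2 (mem_centralizer_iff.1 h3 m hm)
  have hna : ¬ ∀ x ∈ M, ∀ y ∈ M, Commute x y := by
    intro hab
    exact h.inf_not_abelian fun x hx y hy => hab x (hXM hx.1) y (hXM hy.1)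
  obtain ⟨-, hind, hsup, hsimp, hctr, -⟩ := nonabelian_structure M hmin hna
  -- factors
  have hcomm : ∀ L ∈ minSet M, ∀ T ∈ minSet M, T ≠ L → ∀ a ∈ L, ∀ b ∈ T, a * b = b * a := by
    intro L hL T hT hne a ha b hb
    have hdis : Disjoint L T := by
      have h3 := hind.pairwiseDisjoint hL hT hne.symm
      exact h3
    have h4 : ⁅a, b⁆ ∈ L ⊓ T := by
      refine mem_inf.2 ⟨?_, ?_⟩
      · rw [commutatorElement_def, mul_assoc, mul_assoc]
        refine L.mul_mem ha ?_
        rw [← mul_assoc]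
        exact (mem_normalizer_iff.1 (hL.2.2.1 (hT.1 hb)) _).1 (L.inv_mem ha)
      · rw [commutatorElement_def]
        exact T.mul_mem ((mem_normalizer_iff.1 (hT.2.2.1 (hL.1 ha)) _).1 hb) (T.inv_mem hb)
    rw [hdis.eq_bot, mem_bot, commutatorElement_eq_one_iff_mul_comm] at h4
    exact h4
  have hLB : ∀ L ∈ minSet M, L ⊓ (M ⊓ centralizer (L : Set G)) = ⊥ ∧ L ⊔ (M ⊓ centralizer (L : Set G)) = M := by
    intro L hL
    constructor
    · rw [eq_bot_iff]
      rintro x ⟨hxL, -, hxc⟩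
      rw [mem_bot]
      exact hctr L hL x hxL fun t ht => (mem_centralizer_iff.1 hxc t ht).symm
    · apply le_antisymm (sup_le hL.1 inf_le_left)
      conv_lhs => rw [← hsup]
      refine sSup_le fun T hT => ?_
      by_cases hTL : T = L
      · rw [hTL]; exact le_sup_left
      · refine le_sup_of_le_right (le_inf hT.1 fun b hb => ?_)
        rw [mem_centralizer_iff]
        intro a ha
        exact hcomm L hL T hT hTL a ha b hb
  have hexL : ∃ L ∈ minSet M, z ∈ L := by
    by_contra hcon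
    push Not at hcon
    apply hnM
    rw [← hsup]
    refine sSup_le fun L hL => ?_
    obtain ⟨h3, h4⟩ := hLB L hL
    rcases h.mem_factor (A := L) (B := M ⊓ centralizer (L : Set G))
      (fun a ha b hb => mem_centralizer_iff.1 hb.2 a ha) h3 h4 hXM with h5 | h5
    · exact absurd h5 (hcon L hL)
    · intro a ha
      exact mem_Ce.2 (mem_centralizer_iff.1 h5.2 a ha)
  obtain ⟨L, hL, hzL⟩ := hexL
  obtain ⟨hLB1, hLB2⟩ := hLB L hL
  -- `C(z)` normalises `L`
  have hconjL : ∀ g ∈ Ce z, L.map (MulAut.conj g).toMonoidHom = L := by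
    intro g hg
    by_contra hne
    have h3 : L.map (MulAut.conj g).toMonoidHom ∈ minSet M := map_conj_mem_minSet hL g
    have h4 : Disjoint (L.map (MulAut.conj g).toMonoidHom) L := hind.pairwiseDisjoint h3 hL hne
    have h5 : z ∈ L.map (MulAut.conj g).toMonoidHom := ⟨z, hzL, mem_Ce'.1 hg⟩
    have h6 : z ∈ L.map (MulAut.conj g).toMonoidHom ⊓ L := mem_inf.2 ⟨h5, hzL⟩
    rw [h4.eq_bot, mem_bot] at h6
    exact h.z_ne h6
  have hHL : Ce z ≤ normalizer (L : Set G) := by
    rw [le_normalizer_iff]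
    intro g hg x hx
    rw [← hconjL g hg]
    exact ⟨x, hx, rfl⟩
  have hMtop : normalizer (M : Set G) = ⊤ := normalizer_eq_top_iff.2 hM
  have hHB : Ce z ≤ normalizer ((M ⊓ centralizer (L : Set G) : Subgroup G) : Set G) := by
    refine le_normalizer_inf (by rw [hMtop]; exact le_top) ?_
    rw [le_normalizer_iff]
    intro g hg c hc
    rw [mem_centralizer_iff]
    intro n hn'
    have h1 : g⁻¹ * n * g ∈ L := by
      have := (mem_normalizer_iff.1 (hHL (inv_mem hg)) n).1 hn'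
      rwa [inv_inv] at this
    have h2 := mem_centralizer_iff.1 hc _ h1
    calc n * (g * c * g⁻¹) = g * ((g⁻¹ * n * g) * c) * g⁻¹ := by group
      _ = g * (c * (g⁻¹ * n * g)) * g⁻¹ := by rw [h2]
      _ = g * c * g⁻¹ * n := by group
  have hB2 : Nat.card (M ⊓ centralizer (L : Set G) : Subgroup G) ≤ 2 := by
    refine h.small _ ?_ hHB ?_
    · intro b hb
      exact mem_Ce.2 (mem_centralizer_iff.1 hb.2 z hzL).symm
    · intro hzB
      have h6 : z ∈ L ⊓ (M ⊓ centralizer (L : Set G)) := mem_inf.2 ⟨hzL, hzB⟩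
      rw [hLB1, mem_bot] at h6
      exact h.z_ne h6
  have honly : minSet M = {L} := by
    apply Set.Subset.antisymm
    · intro T hT
      rw [Set.mem_singleton_iff]
      by_contra hTL
      have hTB : T ≤ M ⊓ centralizer (L : Set G) := by
        refine le_inf hT.1 fun b hb => ?_
        rw [mem_centralizer_iff]
        intro a ha
        exact hcomm L hL T hT hTL a ha b hb
      have hT2 : Nat.card T ≤ 2 := le_trans (Nat.le_of_dvd Nat.card_pos (card_dvd_of_le hTB)) hB2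
      obtain ⟨t, ht⟩ := (T.ne_bot_iff_exists_ne_one).1 hT.2.1
      apply ht
      apply Subtype.ext
      refine hctr T hT t t.2 fun s hs => ?_
      exact (commute_of_card_le_two hT2 (g := s)
        (fun x hx => T.mul_mem (T.mul_mem hs hx) (T.inv_mem hs)) t.2).symm
    · exact Set.singleton_subset_iff.2 hL
  have hML : M = L := by
    rw [← hsup, honly, sSup_singleton]
  refine ⟨M, hM, ?_, hzM, hXM, hcent, htop⟩
  have h5 := hsimp L hL
  rw [hML]; exact h5

end SetupW

end Cfsg.Agent.H816.Red
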