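import Cfsg.Agent.H316.RedMain
import Cfsg.Agent.H816.Red

/-!
# The almost simple case for `SetupW` (adapted from helper316's RedMain)
-/

set_option autoImplicit false

namespace Cfsg.Agent.H816.Red

open Subgroup Cfsg.Agent.H316.Red
open scoped commutatorElement

variable {G : Type*} [Group G]

namespace SetupW

variable {z : G} {J X : Subgroup G} (h : SetupW z J X)
include h

/-- `M` does not satisfy `LOAut` -/
theorem not_lo [Finite G] {M : Subgroup G} (hXM : X ≤ M) : ¬ Cfsg.Agent.FixBN.LOAut M := by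
  intro hlo
  have hzM : z ∈ M := hXM h.z_mem_X
  set τ : M ≃* M := MulAut.conj (⟨z, hzM⟩ : M) with hτ
  have hτa : ∀ g : M, τ g = (⟨z, hzM⟩ : M) * g * (⟨z, hzM⟩ : M)⁻¹ := fun g => MulAut.conj_apply _ _
  have hzz : (⟨z, hzM⟩ : M) * ⟨z, hzM⟩ = 1 := Subtype.ext h.zz
  have hττ : ∀ g, τ (τ g) = g := by
    intro g
    rw [hτa, hτa]
    have e : (⟨z, hzM⟩ : M) * ((⟨z, hzM⟩ : M) * g * (⟨z, hzM⟩ : M)⁻¹) * (⟨z, hzM⟩ : M)⁻¹ =
        ((⟨z, hzM⟩ : M) * ⟨z, hzM⟩) * g * ((⟨z, hzM⟩ : M) * ⟨z, hzM⟩)⁻¹ := by group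
    rw [e, hzz, one_mul, inv_one, mul_one]
  have hfix : ∀ g : M, g ∈ Cfsg.Agent.FixBN.Reduce.fixSub τ ↔ (g : G) ∈ Ce z := by
    intro g
    show τ g = g ↔ _
    rw [hτa, mem_Ce, mul_inv_eq_iff_eq_mul]
    constructor
    · intro h1; exact (congrArg Subtype.val h1).symm
    · intro h1; exact Subtype.ext h1.symm
  have hc := hlo τ hττ ((X ⊓ J).subgroupOf M) (X.subgroupOf M) ?_ ?_ ?_ ?_ ?_
  · apply h.inf_not_abelian
    intro x hx y hy
    have h1 := hc ⟨x, hXM hx.1⟩ hx.1 ⟨y, hXM hy.1⟩ hy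
    exact congrArg Subtype.val h1
  · intro x hx
    rw [hfix]
    exact h.X_le hx.1
  · intro g hg x hx
    rw [hfix] at hg
    have h1 : Ce z ≤ normalizer ((X ⊓ J : Subgroup G) : Set G) := le_normalizer_inf h.X_norm h.J_norm
    exact (mem_normalizer_iff.1 (h1 hg) _).1 hx
  · exact (h.J_two.to_le inf_le_right).comap_of_injective _ (subtype_injective _)
  · intro x hx
    rw [hfix]
    exact h.X_le hx
  · exact commutator_subgroupOf h.X_perfect hXM

/-- **The almost simple case.** -/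
theorem main [Finite G] {n m a : ℕ} (hm : Odd m) (hX : 2 ^ n * m ∣ Nat.card X) (hH : Nat.card (Ce z) = 2 ^ a * m)
    (hO : Cfsg.oddCore G = ⊥) (h2 : Cfsg.pCore 2 G = ⊥) (hz : Ce z ≠ ⊤) :
    ∃ (M : Subgroup G) (hzM : z ∈ M), M.Normal ∧ IsSimpleGroup M ∧ X ≤ M ∧ centralizer (M : Set G) = ⊥ ∧
      Ce z ⊔ M = ⊤ ∧
      ∃ k, n ≤ k ∧ k ≤ a ∧ M.index = 2 ^ (a - k) ∧ Nat.card (M ⊓ Ce z : Subgroup G) = 2 ^ k * m ∧
        (∃ o, Odd o ∧ Nat.card M = 2 ^ k * o) ∧ ¬ Cfsg.Agent.FixBN.LOAut M := by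
  have : Fact (Nat.Prime 2) := ⟨Nat.prime_two⟩
  have hm0 : 0 < m := hm.pos
  obtain ⟨M, hM, hsimp, hzM, hXM, hcent, htop⟩ := h.exists_simple hO h2 hz
  refine ⟨M, hzM, hM, hsimp, hXM, hcent, htop, ?_⟩
  set T : Subgroup G := M ⊓ Ce z with hT
  have hXT : X ≤ T := le_inf hXM h.X_le
  have h1 : 2 ^ n * m ∣ Nat.card T := hX.trans (card_dvd_of_le hXT)
  have h3 : Nat.card T ∣ 2 ^ a * m := by rw [← hH]; exact card_dvd_of_le inf_le_right
  obtain ⟨c, hc⟩ := h1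
  have ha : n ≤ a := by
    have h4 : 2 ^ n * m ∣ 2 ^ a * m := (Dvd.intro c hc.symm).trans h3
    have h5 : 2 ^ n ∣ 2 ^ a := Nat.dvd_of_mul_dvd_mul_right hm0 h4
    exact (Nat.pow_dvd_pow_iff_le_right (by norm_num)).1 h5
  have h4 : c ∣ 2 ^ (a - n) := by
    rw [hc] at h3
    have h5 : 2 ^ a * m = 2 ^ n * m * 2 ^ (a - n) := by
      have : 2 ^ a = 2 ^ n * 2 ^ (a - n) := by rw [← pow_add]; congr 1; omega
      rw [this]; ring
    rw [h5] at h3
    exact Nat.dvd_of_mul_dvd_mul_left (by positivity) h3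
  obtain ⟨j, hj, hcj⟩ := (Nat.dvd_prime_pow Nat.prime_two).1 h4
  have hTc : Nat.card T = 2 ^ (n + j) * m := by
    rw [hc, hcj, pow_add]; ring
  refine ⟨n + j, by omega, by omega, ?_, hTc, ?_, h.not_lo hXM⟩
  · -- the index
    have e1 : M.index = M.relIndex (Ce z) := by
      rw [← relIndex_top_right, ← htop, relIndex_sup_right]
    have e2 := card_mul_relIndex' (A := M ⊓ Ce z) (B := Ce z) inf_le_right
    rw [inf_relIndex_right, ← e1, hH] at e2
    have e3 : Nat.card (M ⊓ Ce z : Subgroup G) = 2 ^ (n + j) * m := hTc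
    rw [e3] at e2
    have e4 : 2 ^ a * m = 2 ^ (n + j) * m * 2 ^ (a - (n + j)) := by
      have : 2 ^ a = 2 ^ (n + j) * 2 ^ (a - (n + j)) := by rw [← pow_add]; congr 1; omega
      rw [this]; ring
    rw [e4] at e2
    exact Nat.eq_of_mul_eq_mul_left (by positivity) e2
  · obtain ⟨Q, hQ, -⟩ := h.sylow_le
    have e1 : Nat.card ((Q : Subgroup G) ⊓ M : Subgroup G) * (Q : Subgroup G).relIndex M = Nat.card M :=
      Cfsg.Agent.Lib.SylowNormalInf.card_inf_mul_relIndex (Q : Subgroup G) M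
    have e2 : ¬ 2 ∣ (Q : Subgroup G).relIndex M := Cfsg.Agent.Lib.SylowNormalInf.not_dvd_relIndex Q M
    have e3 : IsPGroup 2 ((Q : Subgroup G) ⊓ M : Subgroup G) := Q.isPGroup'.to_le inf_le_left
    obtain ⟨l, hn⟩ := IsPGroup.iff_card.1 e3
    have e4 : (Q : Subgroup G) ⊓ M ≤ T := le_inf inf_le_right (inf_le_left.trans hQ)
    have e5 := card_mul_relIndex' e4
    have e6 : ((Q : Subgroup G) ⊓ M).relIndex T ∣ (Q : Subgroup G).relIndex M := by
      have e7 := relIndex_mul_relIndex ((Q : Subgroup G) ⊓ M) T M e4 inf_le_left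
      rw [inf_relIndex_right] at e7
      exact ⟨_, e7.symm⟩
    have e7 : Odd (((Q : Subgroup G) ⊓ M).relIndex T) := by
      rw [← Nat.not_even_iff_odd, even_iff_two_dvd]
      exact fun hd => e2 (hd.trans e6)
    rw [hn, hTc] at e5
    have e8 : l = n + j := pow_eq_of_mul_odd e7 hm e5
    refine ⟨(Q : Subgroup G).relIndex M, ?_, ?_⟩
    · rw [← Nat.not_even_iff_odd, even_iff_two_dvd]; exact e2
    · rw [← e1, hn, e8]

end SetupW

end Cfsg.Agent.H816.Red
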